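import Cfsg.Agent.H115.HC.RankTwo

/-!
# Cuspidal characters of rank one Levi subgroups: divisibility by the orders of regular torus elements (helper139)

* `dvd_of_reg` : `x ∈ T` such that all nontrivial powers act fixed point freely on `X_{α_i}`: the order of `x` divides
  the degree of the cuspidal characters of `LJ {i}`;
* `exists_chi_pow` : the Harish-Chandra induced character of `H115.HC.exists_chi_mul` with this divisibility;
* `exists_chi_G2_zero`, `exists_chi_G2_one` : type `G₂`, nodes `0` and `1`;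
* these characters vanish at the elements which are not conjugate into the parabolic subgroup.
-/

set_option autoImplicit false

open scoped ComplexConjugate
open Cfsg

namespace Cfsg.Agent.H139.Van.CuspPow

open CoxeterSystem Cfsg.Agent.ChevalleyStructure.CoxeterGeom Cfsg.Agent.Tits.Roots Cfsg.Agent.Tits.Core
  Cfsg.Agent.Tits.Exchange Cfsg.Agent.Nodes.Reps Cfsg.Agent.Nodes.BNOf Cfsg.Agent.Nodes.StabComb
  Cfsg.Agent.Nodes.Bruhat Cfsg.Agent.Nodes.OppDec Cfsg.Agent.Nodes.LeviDec Cfsg.Agent.H53.HC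
  Cfsg.Agent.LieRecognition.RankOneAbstract Cfsg.Agent.Characters Cfsg.Agent.H115.HC

section gen

variable {I W Y : Type*} [Fintype I] [DecidableEq I] [Group W] [Group Y] {M : CoxeterMatrix I}
  {cs : CoxeterSystem M W} {A : I → I → ℤ} {h : IsCartan M A} {p : ℕ} {T : Subgroup Y} {n : I → Y}
  {X : (I → ℤ) → Subgroup Y}

variable (R : RGD cs h p T n X)

include R

/-- regular elements and the degrees of cuspidal characters of the rank one Levi subgroup -/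
theorem dvd_of_reg [Finite W] [Finite Y] {i : I} {ψ : ↥(LJ cs h T X {i}) → ℂ} (hψ : IsIrrCharacter _ ψ)
    (hc : ∀ [Fintype ((X (sr i)).subgroupOf (LJ cs h T X {i}))],
        ∑ u : (X (sr i)).subgroupOf (LJ cs h T X {i}), ψ u = 0)
    {x : Y} (hx : x ∈ T)
    (hreg : ∀ y ∈ Subgroup.zpowers x, y ≠ 1 → ∀ u ∈ X (sr i), y * u = u * y → u = 1) :
    ∃ m : ℕ, ψ 1 = orderOf x * m := by
  classical
  have hf : Fintype ((X (sr i)).subgroupOf (LJ cs h T X {i})) := Fintype.ofFinite _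
  have D := data R i
  have hxL : x ∈ LJ cs h T X {i} := T_le_LJ hx
  have hzero : ∀ y : LJ cs h T X {i}, y ∈ Subgroup.zpowers (⟨x, hxL⟩ : LJ cs h T X {i}) → y ≠ 1 → ψ y = 0 := by
    intro y hy hy1
    obtain ⟨k, ρ, hρ, h1⟩ := hψ
    have hyB : y ∈ (BJ cs h T X {i}).subgroupOf (LJ cs h T X {i}) := by
      have h2 : Subgroup.zpowers (⟨x, hxL⟩ : LJ cs h T X {i}) ≤ (BJ cs h T X {i}).subgroupOf (LJ cs h T X {i}) := by
        rw [Subgroup.zpowers_le, Subgroup.mem_subgroupOf]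
        exact T_le_BJ hx
      exact h2 hy
    rw [← h1]
    refine Cfsg.Agent.H710.Cuspidal.zero_of_regular ρ ((X (sr i)).subgroupOf (LJ cs h T X {i})) (by rw [h1]; exact hc)
      (fun u => ⟨fun hu => D.norm y hyB u hu, fun hu => ?_⟩) ?_
    · have := D.norm y⁻¹ (Subgroup.inv_mem _ hyB) _ hu
      have h2 : y⁻¹ * (y * u * y⁻¹) * y⁻¹⁻¹ = u := by group
      rwa [h2] at this
    · intro u hu hyu
      apply Subtype.ext
      refine hreg y ?_ ?_ u hu ?_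
      · obtain ⟨k, hk⟩ := hy
        refine ⟨k, ?_⟩
        have := congrArg Subtype.val hk
        simpa using this
      · intro h0
        exact hy1 (Subtype.ext h0)
      · exact congrArg Subtype.val hyu
  have hf2 : Fintype (Subgroup.zpowers (⟨x, hxL⟩ : LJ cs h T X {i})) := Fintype.ofFinite _
  obtain ⟨m, hm⟩ := Cfsg.Agent.H710.Cuspidal.exists_mult (Subgroup.zpowers (⟨x, hxL⟩ : LJ cs h T X {i})) hψ
  refine ⟨m, ?_⟩
  rw [Finset.sum_eq_single (1 : Subgroup.zpowers (⟨x, hxL⟩ : LJ cs h T X {i}))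
    (fun u _ hu => hzero u u.2 fun h => hu (Subtype.ext h)) (fun h => absurd (Finset.mem_univ _) h)] at hm
  rw [OneMemClass.coe_one, Nat.card_zpowers, Subgroup.orderOf_mk] at hm
  exact hm

/-- **Harish-Chandra induction from a rank one Levi subgroup**, with the zeros. -/
theorem exists_chi_of_psi_zero [Finite W] [Fintype Y] (hG : GG cs h T X = ⊤) (i : I)
    {ψ : ↥(LJ cs h T X {i}) → ℂ} (hψ : IsIrrCharacter _ ψ)
    (hc : ∀ [Fintype ((X (sr i)).subgroupOf (LJ cs h T X {i}))],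
        ∑ u : (X (sr i)).subgroupOf (LJ cs h T X {i}), ψ u = 0)
    (hs : ∀ w g, Rp cs R.nsys w g → w ∉ WJ cs {i} → rep cs h w (sr i) = sr i →
      ∃ (L : Subgroup Y) (hL : L ≤ LJ cs h T X {i}) (hL' : ∀ l ∈ L, g⁻¹ * l * g ∈ LJ cs h T X {i}),
        ∀ [Fintype L], ∑ l : L, ψ ⟨l, hL l.2⟩ * conj (ψ ⟨g⁻¹ * l * g, hL' l l.2⟩) = 0) :
    ∃ χ : Y → ℂ, IsIrrCharacter Y χ ∧ χ 1 = (PJ cs h T X {i}).index * ψ 1 ∧
      ∀ x, (∀ g, g⁻¹ * x * g ∉ PJ cs h T X {i}) → χ x = 0 := by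
  classical
  obtain ⟨ψ', hψ', hψL, hψV⟩ := exists_infl R {i} hψ
  refine ⟨indFun (PJ cs h T X {i}) ψ', ?_, ?_, ?_⟩
  · refine isIrr_indFun_rgd R hG {i} hψ' hψV ?_ ?_
    · intro k hk hf
      obtain rfl : k = i := hk
      have hf' : Fintype ((X (sr k)).subgroupOf (LJ cs h T X {k})) := Fintype.ofFinite _
      rw [← hc]
      refine Fintype.sum_equiv ((MulEquiv.subgroupCongr (rad_single k)).trans
        (Subgroup.subgroupOfEquivOfLe (X_le_LJ_single (T := T) k)).symm).toEquiv _ _ fun u => ?_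
      rw [← hψL]
      rfl
    · intro w g hg hw hp
      have hwi : rep cs h w (sr i) = sr i := by
        obtain ⟨k, hk, e⟩ := hp.2 i (Set.mem_singleton i)
        rw [e, Set.mem_singleton_iff.1 hk]
      obtain ⟨L, hL, hL', hsum⟩ := hs w g hg hw hwi
      refine ⟨L, le_trans hL LJ_le_PJ, fun l hl => LJ_le_PJ (hL' l hl), ?_⟩
      intro hf
      rw [← hsum]
      refine Finset.sum_congr rfl fun l _ => ?_
      rw [hψL _ (hL l.2), hψL _ (hL' l l.2)]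
  · rw [indFun_one]
    congr 1
    exact hψL 1 (one_mem _)
  · intro x hx
    change (Nat.card (PJ cs h T X {i}) : ℂ)⁻¹ * ∑ g : Y, extendByZero (PJ cs h T X {i}) ψ' (g⁻¹ * x * g) = 0
    rw [Finset.sum_eq_zero, mul_zero]
    intro g _
    unfold extendByZero
    apply Function.extend_apply'
    rintro ⟨y, hy⟩
    exact hx g (hy ▸ y.2)

/-- **Harish-Chandra induction of cuspidal characters of the rank one Levi subgroup with central character in general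
position.** -/
theorem exists_chi_pow [Finite W] [Finite Y] (hG : GG cs h T X = ⊤) (hTc : ∀ a ∈ T, ∀ b ∈ T, a * b = b * a) (i : I)
    (hU : 2 ≤ Nat.card (X (sr i))) (f : T →* ℂˣ)
    (hf : ∀ w g (hg : Rp cs R.nsys w g), w ∉ WJ cs {i} → ∀ hw : rep cs h w (sr i) = sr i,
      ∃ z, ∃ hz : z ∈ CT T X i, f ⟨z, CT_le hz⟩ ≠ f ⟨g⁻¹ * z * g, CT_le (conj_mem_CT R hg hw hz)⟩) :
    ∃ (χ : IrrCharacter Y) (m : ℕ), charDegree (χ : Y → ℂ) = (PJ cs h T X {i}).index * m ∧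
      (∀ x ∈ T, (∀ y ∈ Subgroup.zpowers x, y ≠ 1 → ∀ u ∈ X (sr i), y * u = u * y → u = 1) → orderOf x ∣ m) ∧
      ∀ x, (∀ g, g⁻¹ * x * g ∉ PJ cs h T X {i}) → (χ : Y → ℂ) x = 0 := by
  classical
  have := Fintype.ofFinite Y
  obtain ⟨ψ, hψ, hψc, hψz⟩ := exists_psi R hTc i hU f
  obtain ⟨χ, hχ, hχ1, hχ0⟩ := exists_chi_of_psi_zero R hG i hψ hψc (by
    intro w g hg hw hwi
    refine ⟨CT T X i, le_trans CT_le T_le_LJ, fun l hl => T_le_LJ (CT_le (conj_mem_CT R hg hwi hl)), ?_⟩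
    intro hfin
    let g1 : CT T X i →* ℂˣ := f.comp (Subgroup.inclusion CT_le)
    let g2 : CT T X i →* ℂˣ := f.comp
      { toFun := fun z => ⟨g⁻¹ * z * g, CT_le (conj_mem_CT R hg hwi z.2)⟩
        map_one' := Subtype.ext (by simp)
        map_mul' := fun a b => Subtype.ext (by
          change g⁻¹ * (a * b) * g = (g⁻¹ * a * g) * (g⁻¹ * b * g)
          group) }
    have h1 : ∀ l : CT T X i, ψ ⟨l, T_le_LJ (CT_le l.2)⟩ *
        conj (ψ ⟨g⁻¹ * l * g, T_le_LJ (CT_le (conj_mem_CT R hg hwi l.2))⟩) =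
        (ψ 1 * conj (ψ 1)) * ((g1 l : ℂ) * conj (g2 l : ℂ)) := by
      intro l
      rw [hψz l l.2, hψz _ (conj_mem_CT R hg hwi l.2), map_mul]
      change (g1 l : ℂ) * ψ 1 * (conj (g2 l : ℂ) * conj (ψ 1)) = _
      ring
    rw [Finset.sum_congr rfl fun l _ => h1 l, ← Finset.mul_sum, sum_conj_hom g1 g2, mul_zero]
    obtain ⟨z, hz, hne⟩ := hf w g hg hw hwi
    exact ⟨⟨z, hz⟩, hne⟩)
  have hd : χ 1 = (charDegree χ : ℂ) := Cfsg.Agent.Blocks.Basic.irr_one_eq_charDegree hχ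
  have hd' : ψ 1 = (charDegree ψ : ℂ) := Cfsg.Agent.Blocks.Basic.irr_one_eq_charDegree hψ
  have hdd : charDegree χ = (PJ cs h T X {i}).index * charDegree ψ := by
    rw [hd, hd'] at hχ1
    exact_mod_cast hχ1
  refine ⟨⟨χ, hχ⟩, charDegree ψ, hdd, ?_, hχ0⟩
  rintro x hx hreg
  obtain ⟨m, hm⟩ := dvd_of_reg R hψ hψc hx hreg
  have h1 : charDegree ψ = orderOf x * m := by
    rw [hd'] at hm
    exact_mod_cast hm
  rw [h1]
  exact Dvd.intro m rfl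

/-- **The case of an element inverted by the relevant elements.** -/
theorem exists_chi_inv_pow [Finite W] [Finite Y] (hG : GG cs h T X = ⊤) (hTc : ∀ a ∈ T, ∀ b ∈ T, a * b = b * a) (i : I)
    (hU : 2 ≤ Nat.card (X (sr i))) {z : Y} (hz : z ∈ CT T X i) (hz2 : z * z ≠ 1)
    (hinv : ∀ w g, Rp cs R.nsys w g → w ∉ WJ cs {i} → rep cs h w (sr i) = sr i → g⁻¹ * z * g = z⁻¹) :
    ∃ (χ : IrrCharacter Y) (m : ℕ), charDegree (χ : Y → ℂ) = (PJ cs h T X {i}).index * m ∧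
      (∀ x ∈ T, (∀ y ∈ Subgroup.zpowers x, y ≠ 1 → ∀ u ∈ X (sr i), y * u = u * y → u = 1) → orderOf x ∣ m) ∧
      ∀ x, (∀ g, g⁻¹ * x * g ∉ PJ cs h T X {i}) → (χ : Y → ℂ) x = 0 := by
  obtain ⟨f, hf⟩ := exists_hom_ne_one hTc (T.mul_mem (CT_le hz) (CT_le hz)) hz2
  refine exists_chi_pow R hG hTc i hU f fun w g hg hw hwi => ⟨z, hz, fun he => hf ?_⟩
  have h1 : f ⟨z * z, T.mul_mem (CT_le hz) (CT_le hz)⟩ = f ⟨z, CT_le hz⟩ * f ⟨z, CT_le hz⟩ := by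
    rw [← map_mul]
    rfl
  have h2 : f ⟨g⁻¹ * z * g, CT_le (conj_mem_CT R hg hwi hz)⟩ = (f ⟨z, CT_le hz⟩)⁻¹ := by
    rw [← map_inv]
    congr 1
    exact Subtype.ext (hinv w g hg hw hwi)
  rw [h2] at he
  rw [h1]
  exact mul_eq_one_iff_eq_inv.2 he

end gen

/-! ### type `G₂`, the node `1` -/

section rankTwo

variable {W Y : Type*} [Group W] [Group Y] {M : CoxeterMatrix (Fin 2)}
  {cs : CoxeterSystem M W} {A : Fin 2 → Fin 2 → ℤ} {h : IsCartan M A} {p : ℕ} {T : Subgroup Y} {n : Fin 2 → Y}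
  {X : (Fin 2 → ℤ) → Subgroup Y}

/-- the reflection word -/
def vv1 (cs : CoxeterSystem M W) : W :=
  cs.simple 0 * cs.simple 1 * cs.simple 0 * (cs.simple 0 * cs.simple 1)⁻¹

theorem rep_eq_of_one [Finite W] {w : W} (hw : w ∉ WJ cs ({1} : Set (Fin 2))) (h0 : rep cs h w (sr 1) = sr 1) :
    rep cs h w (sr 0) = fun k => if k = 1 then A 1 0 else -1 := by
  have hJ : ∀ i : Fin 2, i ∈ ({1} : Set (Fin 2)) ↔ i ≠ 0 := by
    intro i
    fin_cases i <;> simp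
  have hp : Perm cs h ({1} : Set (Fin 2)) w := by
    refine ⟨fun i hi => ⟨1, rfl, ?_⟩, fun i hi => ⟨1, rfl, ?_⟩⟩
    · rw [Set.mem_singleton_iff.1 hi]
      nth_rw 1 [← h0]
      rw [rep_inv_apply]
    · rw [Set.mem_singleton_iff.1 hi, h0]
  have h1 := apply_eq_neg hJ hp hw (sr 0)
  rw [sr_self] at h1
  have h2 := pairing_rep h0 (sr 0)
  rw [sr, pairing_single, mul_one] at h2
  unfold pairing at h2
  rw [Fin.sum_univ_two, h.diag, show (rep cs h w (Pi.single 0 1) : Fin 2 → ℤ) 0 = -1 from h1] at h2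
  funext k
  fin_cases k
  · exact h1
  · change rep cs h w (Pi.single 0 1) 1 = A 1 0
    linarith

/-- the image of a vector under the reflection -/
theorem rep_vv1 (hA : A 0 1 * A 1 0 = 3) (x : Fin 2 → ℤ) :
    rep cs h (vv1 cs) x = ![-x 0, x 1 + A 1 0 * x 0] := by
  have e : vv1 cs = cs.simple 0 * (cs.simple 1 * (cs.simple 0 * (cs.simple 1 * cs.simple 0))) := by
    unfold vv1
    rw [mul_inv_rev, cs.inv_simple, cs.inv_simple]
    simp only [mul_assoc]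
  rw [e, rep_mul_apply, rep_mul_apply, rep_mul_apply, rep_mul_apply]
  simp only [rep_zero, rep_one, Matrix.cons_val_zero, Matrix.cons_val_one]
  apply vec_ext
  · linear_combination (-A 0 1 * (A 0 1 * A 1 0 - 1) * x 1 - A 0 1 * A 1 0 * x 0) * hA
  · linear_combination (A 0 1 * A 1 0 * x 1 + A 1 0 * x 0) * hA

/-- For type `G₂` the only element outside `W_{1}` fixing `α_1` is the reflection of `s_0 s_1 α_0`. -/
theorem eq_vv1 [Finite W] (hA : A 0 1 * A 1 0 = 3) {w : W} (hw : w ∉ WJ cs ({1} : Set (Fin 2)))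
    (h0 : rep cs h w (sr 1) = sr 1) : w = vv1 cs := by
  refine eq_of_rep (cs := cs) (h := h) fun i => ?_
  have h1 := rep_eq_of_one hw h0
  rw [rep_vv1 hA]
  fin_cases i
  · change rep cs h w (sr 0) = ![-(sr 0 : Fin 2 → ℤ) 0, (sr 0 : Fin 2 → ℤ) 1 + A 1 0 * (sr 0 : Fin 2 → ℤ) 0]
    rw [h1, sr_zero_eq]
    funext k
    fin_cases k <;> simp
  · change rep cs h w (sr 1) = ![-(sr 1 : Fin 2 → ℤ) 0, (sr 1 : Fin 2 → ℤ) 1 + A 1 0 * (sr 1 : Fin 2 → ℤ) 0]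
    rw [h0, sr_one_eq]
    exact vec_ext (by simp) (by simp)

/-- the root `s_1 s_0 α_1` -/
theorem rep_inv_one (hA : A 0 1 * A 1 0 = 3) :
    rep cs h (cs.simple 0 * cs.simple 1)⁻¹ (sr 1) = ![-A 0 1, 2] := by
  rw [mul_inv_rev, cs.inv_simple, cs.inv_simple, rep_mul_apply, sr_one_eq]
  simp only [rep_zero, rep_one, Matrix.cons_val_zero, Matrix.cons_val_one]
  apply vec_ext
  · ring
  · linear_combination hA

variable (R : RGD cs h p T n X)

include R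

/-- **The characters for type `G₂`, induced from the node `1`.** -/
theorem exists_chi_G2_one [Finite W] [Finite Y] (hG : GG cs h T X = ⊤) (hTc : ∀ a ∈ T, ∀ b ∈ T, a * b = b * a)
    (hA : A 0 1 * A 1 0 = 3) (hU : 2 ≤ Nat.card (X (sr 1))) {a : Y} (ha : a ∈ T) (ha2 : a * a ≠ 1)
    (hinv : (n 0)⁻¹ * a * n 0 = a⁻¹) (hc : ∀ u ∈ X ![-A 0 1, 2], a * u = u * a)
    (hc' : ∀ u ∈ X (-![-A 0 1, 2]), a * u = u * a) :
    ∃ (χ : IrrCharacter Y) (m : ℕ), charDegree (χ : Y → ℂ) = (PJ cs h T X {1}).index * m ∧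
      (∀ x ∈ T, (∀ y ∈ Subgroup.zpowers x, y ≠ 1 → ∀ u ∈ X (sr 1), y * u = u * y → u = 1) → orderOf x ∣ m) ∧
      ∀ x, (∀ g, g⁻¹ * x * g ∉ PJ cs h T X {1}) → (χ : Y → ℂ) x = 0 := by
  have hm : Rp cs R.nsys (cs.simple 0 * cs.simple 1) (n 0 * n 1) :=
    (rp_simple cs R.nsys 0).mul (rp_simple cs R.nsys 1)
  have hy : ∀ u ∈ X (sr 1), (n 0 * n 1)⁻¹ * u * (n 0 * n 1) ∈ X ![-A 0 1, 2] := by
    intro u hu
    have := R.conj_mem' hm (isRoot_sr cs h 1) hu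
    rwa [rep_inv_one hA] at this
  have hy' : ∀ u ∈ X (-sr 1), (n 0 * n 1)⁻¹ * u * (n 0 * n 1) ∈ X (-![-A 0 1, 2]) := by
    intro u hu
    have := R.conj_mem' hm (isRoot_sr cs h 1).neg hu
    rwa [map_neg, rep_inv_one hA] at this
  have hzT : (n 0 * n 1) * a * (n 0 * n 1)⁻¹ ∈ T := by
    have h1 := (mem_normalizer_iff_cj.1 hm.mem_normalizer)
    have h2 : (n 0 * n 1) * a * (n 0 * n 1)⁻¹ ∈ cj (n 0 * n 1) T := conj_mem_cj.2 ha
    rwa [h1] at h2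
  have hconj : ∀ u, a * ((n 0 * n 1)⁻¹ * u * (n 0 * n 1)) = ((n 0 * n 1)⁻¹ * u * (n 0 * n 1)) * a →
      (n 0 * n 1) * a * (n 0 * n 1)⁻¹ * u = u * ((n 0 * n 1) * a * (n 0 * n 1)⁻¹) := by
    intro u hu
    calc (n 0 * n 1) * a * (n 0 * n 1)⁻¹ * u =
          (n 0 * n 1) * (a * ((n 0 * n 1)⁻¹ * u * (n 0 * n 1))) * (n 0 * n 1)⁻¹ := by group
      _ = (n 0 * n 1) * (((n 0 * n 1)⁻¹ * u * (n 0 * n 1)) * a) * (n 0 * n 1)⁻¹ := by rw [hu]
      _ = _ := by group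
  have hz : (n 0 * n 1) * a * (n 0 * n 1)⁻¹ ∈ CT T X 1 :=
    mem_CT.2 ⟨hzT, fun u hu => hconj u (hc _ (hy u hu)), fun u hu => hconj u (hc' _ (hy' u hu))⟩
  refine exists_chi_inv_pow R hG hTc 1 hU hz ?_ ?_
  · intro h1
    apply ha2
    have h2 : (n 0 * n 1) * (a * a) * (n 0 * n 1)⁻¹ = 1 := by
      rw [← h1]
      group
    rwa [mul_inv_eq_one, mul_eq_left] at h2
  · intro w g hg hw hwi
    have hwv := eq_vv1 hA hw hwi
    subst hwv
    have hg1 : Rp cs R.nsys (vv1 cs) ((n 0 * n 1) * n 0 * (n 0 * n 1)⁻¹) :=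
      (hm.mul (rp_simple cs R.nsys 0)).mul hm.inv
    have ht := hg1.unique hg
    set m := n 0 * n 1 with hm0
    set t := (m * n 0 * m⁻¹)⁻¹ * g with ht0
    have e : g = m * n 0 * m⁻¹ * t := by rw [ht0]; group
    have e1 : (m * n 0 * m⁻¹)⁻¹ * (m * a * m⁻¹) * (m * n 0 * m⁻¹) = (m * a * m⁻¹)⁻¹ := by
      calc (m * n 0 * m⁻¹)⁻¹ * (m * a * m⁻¹) * (m * n 0 * m⁻¹) = m * ((n 0)⁻¹ * a * n 0) * m⁻¹ := by group
        _ = _ := by rw [hinv]; group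
    have e2 := hTc _ (inv_mem hzT) _ ht
    calc g⁻¹ * (m * a * m⁻¹) * g = t⁻¹ * ((m * n 0 * m⁻¹)⁻¹ * (m * a * m⁻¹) * (m * n 0 * m⁻¹)) * t := by
          rw [e]; group
      _ = t⁻¹ * ((m * a * m⁻¹)⁻¹ * t) := by rw [e1, mul_assoc]
      _ = t⁻¹ * (t * (m * a * m⁻¹)⁻¹) := by rw [e2]
      _ = _ := by group

/-- **The characters for type `G₂`, induced from the node `0`.** -/
theorem exists_chi_G2_zero [Finite W] [Finite Y] (hG : GG cs h T X = ⊤) (hTc : ∀ a ∈ T, ∀ b ∈ T, a * b = b * a)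
    (hA : A 0 1 * A 1 0 = 3) (hU : 2 ≤ Nat.card (X (sr 0))) {a : Y} (ha : a ∈ T) (ha2 : a * a ≠ 1)
    (hinv : (n 1)⁻¹ * a * n 1 = a⁻¹) (hc : ∀ u ∈ X ![2, -A 1 0], a * u = u * a)
    (hc' : ∀ u ∈ X (-![2, -A 1 0]), a * u = u * a) :
    ∃ (χ : IrrCharacter Y) (m : ℕ), charDegree (χ : Y → ℂ) = (PJ cs h T X {0}).index * m ∧
      (∀ x ∈ T, (∀ y ∈ Subgroup.zpowers x, y ≠ 1 → ∀ u ∈ X (sr 0), y * u = u * y → u = 1) → orderOf x ∣ m) ∧
      ∀ x, (∀ g, g⁻¹ * x * g ∉ PJ cs h T X {0}) → (χ : Y → ℂ) x = 0 := by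
  have hm : Rp cs R.nsys (cs.simple 1 * cs.simple 0) (n 1 * n 0) :=
    (rp_simple cs R.nsys 1).mul (rp_simple cs R.nsys 0)
  have hy : ∀ u ∈ X (sr 0), (n 1 * n 0)⁻¹ * u * (n 1 * n 0) ∈ X ![2, -A 1 0] := by
    intro u hu
    have := R.conj_mem' hm (isRoot_sr cs h 0) hu
    rwa [rep_inv_zero hA] at this
  have hy' : ∀ u ∈ X (-sr 0), (n 1 * n 0)⁻¹ * u * (n 1 * n 0) ∈ X (-![2, -A 1 0]) := by
    intro u hu
    have := R.conj_mem' hm (isRoot_sr cs h 0).neg hu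
    rwa [map_neg, rep_inv_zero hA] at this
  have hzT : (n 1 * n 0) * a * (n 1 * n 0)⁻¹ ∈ T := by
    have h1 := (mem_normalizer_iff_cj.1 hm.mem_normalizer)
    have h2 : (n 1 * n 0) * a * (n 1 * n 0)⁻¹ ∈ cj (n 1 * n 0) T := conj_mem_cj.2 ha
    rwa [h1] at h2
  have hconj : ∀ u, a * ((n 1 * n 0)⁻¹ * u * (n 1 * n 0)) = ((n 1 * n 0)⁻¹ * u * (n 1 * n 0)) * a →
      (n 1 * n 0) * a * (n 1 * n 0)⁻¹ * u = u * ((n 1 * n 0) * a * (n 1 * n 0)⁻¹) := by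
    intro u hu
    calc (n 1 * n 0) * a * (n 1 * n 0)⁻¹ * u =
          (n 1 * n 0) * (a * ((n 1 * n 0)⁻¹ * u * (n 1 * n 0))) * (n 1 * n 0)⁻¹ := by group
      _ = (n 1 * n 0) * (((n 1 * n 0)⁻¹ * u * (n 1 * n 0)) * a) * (n 1 * n 0)⁻¹ := by rw [hu]
      _ = _ := by group
  have hz : (n 1 * n 0) * a * (n 1 * n 0)⁻¹ ∈ CT T X 0 :=
    mem_CT.2 ⟨hzT, fun u hu => hconj u (hc _ (hy u hu)), fun u hu => hconj u (hc' _ (hy' u hu))⟩
  refine exists_chi_inv_pow R hG hTc 0 hU hz ?_ ?_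
  · intro h1
    apply ha2
    have h2 : (n 1 * n 0) * (a * a) * (n 1 * n 0)⁻¹ = 1 := by
      rw [← h1]
      group
    rwa [mul_inv_eq_one, mul_eq_left] at h2
  · intro w g hg hw hwi
    have hwv := eq_vv hA hw hwi
    subst hwv
    have hg1 : Rp cs R.nsys (vv cs) ((n 1 * n 0) * n 1 * (n 1 * n 0)⁻¹) :=
      (hm.mul (rp_simple cs R.nsys 1)).mul hm.inv
    have ht := hg1.unique hg
    set m := n 1 * n 0 with hm0
    set t := (m * n 1 * m⁻¹)⁻¹ * g with ht0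
    have e : g = m * n 1 * m⁻¹ * t := by rw [ht0]; group
    have e1 : (m * n 1 * m⁻¹)⁻¹ * (m * a * m⁻¹) * (m * n 1 * m⁻¹) = (m * a * m⁻¹)⁻¹ := by
      calc (m * n 1 * m⁻¹)⁻¹ * (m * a * m⁻¹) * (m * n 1 * m⁻¹) = m * ((n 1)⁻¹ * a * n 1) * m⁻¹ := by group
        _ = _ := by rw [hinv]; group
    have e2 := hTc _ (inv_mem hzT) _ ht
    calc g⁻¹ * (m * a * m⁻¹) * g = t⁻¹ * ((m * n 1 * m⁻¹)⁻¹ * (m * a * m⁻¹) * (m * n 1 * m⁻¹)) * t := by
          rw [e]; group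
      _ = t⁻¹ * ((m * a * m⁻¹)⁻¹ * t) := by rw [e1, mul_assoc]
      _ = t⁻¹ * (t * (m * a * m⁻¹)⁻¹) := by rw [e2]
      _ = _ := by group

end rankTwo

end Cfsg.Agent.H139.Van.CuspPow
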