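import Cfsg.Agent.H115.HC.Rows
import Cfsg.Agent.H720.PV.Tools

/-!
# Characters of `p`-defect zero of `G₂(q)` for `p ∤ q (q² - 1)` (helper139)

* `dz_G2`.
-/

set_option autoImplicit false
set_option linter.unusedSectionVars false

namespace Cfsg.Agent.H139.Van.DzG2

open Cfsg Cfsg.Lie Cfsg.Agent.H720.PV Cfsg.Agent.H115.HC

/-- if `N = d * C` and `p ∤ C` then the `p`-part of `N` divides `d` -/
theorem pow_dvd_of {N d C p : ℕ} (hp : p.Prime) (hN : N = d * C) (hC : ¬ p ∣ C) :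
    p ^ N.factorization p ∣ d := by
  have h1 : p ^ N.factorization p ∣ d * C := by rw [← hN]; exact Nat.ordProj_dvd N p
  exact (Nat.Coprime.pow_left _ ((Nat.Prime.coprime_iff_not_dvd hp).2 hC)).dvd_of_dvd_mul_right h1

theorem HasDZ.of_equiv {p : ℕ} {G H : Type*} [Group G] [Group H] (e : G ≃* H)
    (h : H665.NoPQ.HasDZ p H) : H665.NoPQ.HasDZ p G := by
  obtain ⟨χ, hχ⟩ := h
  refine ⟨⟨_, Cfsg.Agent.Characters.Core.isIrr_comp e.toMonoidHom e.surjective χ.2⟩, ?_⟩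
  have h1 : charDegree ((χ : H → ℂ) ∘ e.toMonoidHom) = charDegree (χ : H → ℂ) := by
    rw [Cfsg.Agent.Blocks.Basic.charDegree_def, Cfsg.Agent.Blocks.Basic.charDegree_def]
    simp
  rw [Nat.card_congr e.toEquiv, ← hχ]
  exact congrArg (fun n => n.factorization p) h1

theorem arith {q : ℕ} (hq : 2 ≤ q) : q ^ 6 * (q ^ 2 - 1) * (q ^ 6 - 1) =
    (q + 1) * (q ^ 4 + q ^ 2 + 1) * (q ^ 6 * ((q + 1) * (q - 1) * (q - 1))) := by
  obtain ⟨m, rfl⟩ := Nat.exists_eq_add_of_le hq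
  have e1 : 2 + m - 1 = m + 1 := by omega
  have e2 : (2 + m) ^ 2 - 1 = (m + 1) * (2 + m + 1) := by
    rw [show (2 + m) ^ 2 = (m + 1) * (2 + m + 1) + 1 by ring]
    rfl
  have e3 : (2 + m) ^ 6 - 1 = (m + 1) * ((2 + m + 1) * ((2 + m) ^ 4 + (2 + m) ^ 2 + 1)) := by
    rw [show (2 + m) ^ 6 = (m + 1) * ((2 + m + 1) * ((2 + m) ^ 4 + (2 + m) ^ 2 + 1)) + 1 by ring]
    rfl
  rw [e1, e2, e3]
  ring

/-- **`G₂(q)`, `q ≥ 3`, has characters of `p`-defect zero for all primes `p ∤ q (q² - 1)`.** -/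
theorem dz_G2 {F : Type} [Field F] [Fintype F] (h3 : 3 ≤ Fintype.card F) {p : ℕ} [hpf : Fact p.Prime]
    (hpq : ¬ p ∣ Fintype.card F) (h1 : ¬ p ∣ Fintype.card F - 1) (h2 : ¬ p ∣ Fintype.card F + 1) :
    H665.NoPQ.HasDZ p ↥(chevG2.group F) := by
  classical
  have hpp := hpf.out
  have hC : ∀ q : ℕ, q = Fintype.card F → ¬ p ∣ q ^ 6 * ((q + 1) * (q - 1) * (q - 1)) := by
    rintro q rfl h
    rcases hpp.dvd_mul.1 h with h | h
    · exact hpq (hpp.dvd_of_dvd_pow h)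
    · rcases hpp.dvd_mul.1 h with h | h
      · rcases hpp.dvd_mul.1 h with h | h
        · exact h2 h
        · exact h1 h
      · exact h1 h
  rcases Nat.eq_or_lt_of_le h3 with h4 | h4
  · have e : F ≃+* ZMod 3 := by
      have : CharP F 3 := by
        obtain ⟨p, hch⟩ := CharP.exists F
        obtain ⟨⟨k, hk⟩, hpp, hcard⟩ := FiniteField.card F p
        have h5 : p ^ k = 3 := by rw [h4]; exact hcard.symm
        have h6 : p ∣ 3 := by
          rw [← h5]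
          exact dvd_pow_self p hk.ne'
        have h7 := (Nat.prime_dvd_prime_iff_eq hpp Nat.prime_three).1 h6
        rwa [h7] at hch
      have h5 := ZMod.ringEquivOfPrime F Nat.prime_three h4.symm
      exact h5.symm
    have e' := Cfsg.Agent.ChevStructure.FieldMap.groupEquivOfRingEquiv chevG2 e
    refine HasDZ.of_equiv e' ?_
    obtain ⟨χ, m, hχ⟩ := GThree.char_three
    have : Finite ↥(chevG2.group (ZMod 3)) := inferInstance
    refine hasDZ_of_degree χ.2 (Cfsg.Agent.Blocks.Basic.irr_one_eq_charDegree χ.2) ?_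
    have hc : Nat.card ↥(chevG2.group (ZMod 3)) = 3 ^ 6 * (3 ^ 2 - 1) * (3 ^ 6 - 1) :=
      Cfsg.Agent.S1059.result (by rw [ZMod.card])
    refine (pow_dvd_of hpp (d := 364) (C := 3 ^ 6 * ((3 + 1) * (3 - 1) * (3 - 1))) ?_ (hC 3 h4)).trans ⟨m, hχ⟩
    rw [hc, arith (by norm_num)]
    norm_num
  · obtain ⟨χ, m, hχ, -⟩ := GTwo.char_four (K := F) h4
    have : Finite ↥(chevG2.group F) := inferInstance
    refine hasDZ_of_degree χ.2 (Cfsg.Agent.Blocks.Basic.irr_one_eq_charDegree χ.2) ?_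
    rw [hχ]
    refine (pow_dvd_of hpp ?_ (hC _ rfl)).mul_right m
    rw [Cfsg.Agent.S1059.result rfl, arith (by omega)]

end Cfsg.Agent.H139.Van.DzG2
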