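import Cfsg.Agent.H139.Cusp.Bridge
import Cfsg.Agent.H139.Cusp.Orth
import Cfsg.Agent.H53.HC.Mackey
import Mathlib.FieldTheory.Finite.Extension

/-!
# The faithful cuspidal character of `GL₂(3)` (helper139, for S4555)

* `sq_eq` : elements of order 8 of `GL₂(K)`, `|K| = 3`: `det = -1`, `A⁴ = -1`;
* `conj_cube` : `A ~ A³`;
* `exists_psi` : an irreducible character `ψ` of `GL₂(K)` with `ψ(A) + conj ψ(A) = 0` for `A` of order 8, cuspidal,
  and orthogonal to `A ↦ ψ(det(A) A)`.
-/

set_option autoImplicit false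
set_option linter.unusedSectionVars false
set_option linter.unusedSimpArgs false

open scoped ComplexConjugate
open Cfsg Matrix Polynomial

namespace Cfsg.Agent.H139.Van.G2Three

open Cfsg.Agent.H139.Cusp Cfsg.Agent.H53.HC Cfsg.Agent.Characters

universe u w

variable {K : Type u} [Field K] [Fintype K]

theorem three_eq (hK : Fintype.card K = 3) : (3 : K) = 0 := by
  have h := FiniteField.cast_card_eq_zero K
  rw [hK] at h
  exact_mod_cast h

theorem two_ne (hK : Fintype.card K = 3) : (2 : K) ≠ 0 := by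
  intro h
  have h3 := three_eq hK
  have h1 : (1 : K) = 3 - 2 := by norm_num
  rw [h3, h, sub_zero] at h1
  exact one_ne_zero h1

theorem sq_one (hK : Fintype.card K = 3) {c : K} (hc : c ≠ 0) : c ^ 2 = 1 := by
  have h := FiniteField.pow_card_sub_one_eq_one c hc
  rwa [hK] at h

theorem eq_or (hK : Fintype.card K = 3) {c : K} (hc : c ≠ 0) : c = 1 ∨ c = -1 :=
  sq_eq_one_iff_of_ne hK hc
where
  sq_eq_one_iff_of_ne (hK : Fintype.card K = 3) {c : K} (hc : c ≠ 0) : c = 1 ∨ c = -1 := by
    have h := sq_one hK hc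
    have h1 : (c - 1) * (c + 1) = 0 := by linear_combination h
    rcases mul_eq_zero.1 h1 with h2 | h2
    · exact Or.inl (sub_eq_zero.1 h2)
    · exact Or.inr (eq_neg_of_add_eq_zero_left h2)

/-- the matrix -/
theorem cayley (A : Matrix (Fin 2) (Fin 2) K) : A * A = A.trace • A - A.det • 1 := by
  rw [Matrix.det_fin_two, Matrix.trace_fin_two]
  ext i j
  rw [Matrix.mul_apply, Fin.sum_univ_two]
  fin_cases i <;> fin_cases j <;>
    simp [Matrix.sub_apply, Matrix.smul_apply] <;> ring

/-- elements of order 8 -/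
theorem of_order (hK : Fintype.card K = 3) {A : GL (Fin 2) K} (hA : orderOf A = 8) :
    (A : Matrix (Fin 2) (Fin 2) K).det = -1 ∧ (A : Matrix (Fin 2) (Fin 2) K).trace ^ 2 = 1 := by
  have h3 := three_eq hK
  set B := (A : Matrix (Fin 2) (Fin 2) K) with hB
  have hdet : B.det ≠ 0 := by
    have h1 : IsUnit (A : Matrix (Fin 2) (Fin 2) K).det := (Matrix.isUnit_iff_isUnit_det _).1 A.isUnit
    exact h1.ne_zero
  have hc := cayley B
  have hne : ∀ k : ℕ, 0 < k → k < 8 → B ^ k ≠ 1 := by
    intro k hk hk8 h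
    have h1 : A ^ k = 1 := by
      apply Units.ext
      rw [Units.val_pow_eq_pow_val, Units.val_one]
      exact h
    have h2 := orderOf_dvd_of_pow_eq_one h1
    rw [hA] at h2
    have := Nat.le_of_dvd hk h2
    omega
  have e2 : B ^ 2 = B.trace • B - B.det • 1 := by rw [pow_two, hc]
  have e3 : B ^ 3 = (B.trace ^ 2 - B.det) • B - (B.trace * B.det) • 1 := by
    rw [pow_succ, e2, sub_mul, smul_mul_assoc, ← pow_two, e2, smul_mul_assoc, one_mul]
    module
  have e4 : B ^ 4 = (B.trace ^ 3 - 2 * B.trace * B.det) • B - ((B.trace ^ 2 - B.det) * B.det) • 1 := by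
    rw [pow_succ, e3, sub_mul, smul_mul_assoc, ← pow_two, e2, smul_mul_assoc, one_mul]
    module
  rcases eq_or hK hdet with hd | hd
  · exfalso
    by_cases ht : B.trace = 0
    · refine hne 4 (by norm_num) (by norm_num) ?_
      rw [e4, hd, ht]
      module
    · have ht2 := sq_one hK ht
      have e3' : B ^ 3 = -(B.trace • (1 : Matrix (Fin 2) (Fin 2) K)) := by
        rw [e3, hd, ht2]
        module
      refine hne 6 (by norm_num) (by norm_num) ?_
      have : B ^ 6 = B ^ 3 * B ^ 3 := by rw [← pow_add]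
      rw [this, e3', neg_mul_neg, smul_mul_smul_comm, one_mul, ← pow_two, ht2, one_smul]
  · refine ⟨hd, ?_⟩
    by_cases ht : B.trace = 0
    · exfalso
      refine hne 2 (by norm_num) (by norm_num) ?_
      rw [e2, hd, ht]
      module
    · exact sq_one hK ht

theorem pow_four (hK : Fintype.card K = 3) {A : GL (Fin 2) K} (hA : orderOf A = 8) :
    A ^ 4 = GeneralLinearGroup.scalar (Fin 2) (-1 : Kˣ) := by
  have h3 := three_eq hK
  obtain ⟨hd, ht⟩ := of_order hK hA
  set B := (A : Matrix (Fin 2) (Fin 2) K) with hB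
  have hc := cayley B
  have e2 : B ^ 2 = B.trace • B + 1 := by rw [pow_two, hc, hd]; module
  have e4 : B ^ 4 = -1 := by
    have : B ^ 4 = B ^ 2 * B ^ 2 := by rw [← pow_add]
    rw [this, e2, add_mul, mul_add, smul_mul_smul_comm, ← pow_two, ← pow_two, ht, one_smul, e2, mul_one, one_mul]
    have h6 : (3 : K) • (B.trace • B) = 0 := by rw [h3, zero_smul]
    have h7 : (3 : K) • (1 : Matrix (Fin 2) (Fin 2) K) = 0 := by rw [h3, zero_smul]
    have h8 : B.trace • B + 1 + B.trace • B + (B.trace • B + 1) =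
        (3 : K) • (B.trace • B) + (3 : K) • (1 : Matrix (Fin 2) (Fin 2) K) - 1 := by module
    rw [h8, h6, h7]
    abel
  apply Units.ext
  rw [Units.val_pow_eq_pow_val, e4]
  ext i j
  fin_cases i <;> fin_cases j <;> simp [GeneralLinearGroup.scalar]

/-- **`A ~ A³`** -/
theorem conj_cube (hK : Fintype.card K = 3) {A : GL (Fin 2) K} (hA : orderOf A = 8) :
    ∃ B : GL (Fin 2) K, B * A * B⁻¹ = A ^ 3 := by
  have h3 := three_eq hK
  obtain ⟨hd, ht⟩ := of_order hK hA
  set M := (A : Matrix (Fin 2) (Fin 2) K) with hM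
  have hd' : M 0 0 * M 1 1 - M 0 1 * M 1 0 = -1 := by rw [← Matrix.det_fin_two]; exact hd
  have ht' : (M 0 0 + M 1 1) ^ 2 = 1 := by rw [← Matrix.trace_fin_two]; exact ht
  have hb : M 0 1 * M 1 0 ≠ 0 := by
    intro h0
    have h1 : M 0 0 * M 1 1 = -1 := by linear_combination hd' + h0
    have h2 : (M 0 0 - M 1 1) ^ 2 = -1 := by
      have h4 : (M 0 0 - M 1 1) ^ 2 = (M 0 0 + M 1 1) ^ 2 - 4 * (M 0 0 * M 1 1) := by ring
      rw [h4, ht', h1]
      linear_combination 2 * h3
    by_cases h4 : M 0 0 - M 1 1 = 0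
    · rw [h4] at h2
      have h5 : (1 : K) = 0 := by linear_combination h2
      exact one_ne_zero h5
    · rw [sq_one hK h4] at h2
      exact two_ne hK (by linear_combination h2)
  have hc := cayley M
  have e3 : M ^ 3 = M.trace • 1 - M := by
    have e2 : M ^ 2 = M.trace • M + 1 := by rw [pow_two, hc, hd]; module
    rw [pow_succ, e2, add_mul, smul_mul_assoc, one_mul, ← pow_two, e2, smul_add, smul_smul, ← pow_two, ht, one_smul]
    have h6 : (3 : K) • M = 0 := by rw [h3, zero_smul]
    have h8 : M + M.trace • (1 : Matrix (Fin 2) (Fin 2) K) + M = M.trace • 1 - M + (3 : K) • M := by module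
    rw [h8, h6, add_zero]
  let B : GL (Fin 2) K := GeneralLinearGroup.mkOfDetNeZero !![0, M 0 1; -M 1 0, 0] (by
    rw [Matrix.det_fin_two_of]
    intro h
    apply hb
    linear_combination h)
  refine ⟨B, ?_⟩
  rw [mul_inv_eq_iff_eq_mul]
  apply Units.ext
  rw [Units.val_mul, Units.val_mul, Units.val_pow_eq_pow_val]
  change !![0, M 0 1; -M 1 0, 0] * M = M ^ 3 * !![0, M 0 1; -M 1 0, 0]
  rw [e3, Matrix.trace_fin_two]
  ext i j
  rw [Matrix.mul_apply, Matrix.mul_apply, Fin.sum_univ_two, Fin.sum_univ_two]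
  fin_cases i <;> fin_cases j <;> simp <;> ring

/-- the matrix of order 8 -/
theorem exists_order (hK : Fintype.card K = 3) : ∃ A : GL (Fin 2) K, orderOf A = 8 := by
  have h3 := three_eq hK
  let A : GL (Fin 2) K := GeneralLinearGroup.mkOfDetNeZero !![1, 1; 1, 0] (by
    rw [Matrix.det_fin_two_of]
    intro h
    apply one_ne_zero (α := K)
    linear_combination -h)
  refine ⟨A, ?_⟩
  have e2 : ((A ^ 2 : GL (Fin 2) K) : Matrix (Fin 2) (Fin 2) K) = !![2, 1; 1, 1] := by
    rw [Units.val_pow_eq_pow_val, pow_two]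
    change !![1, 1; 1, 0] * !![1, 1; 1, 0] = (!![2, 1; 1, 1] : Matrix (Fin 2) (Fin 2) K)
    ext i j
    fin_cases i <;> fin_cases j <;> simp [Matrix.mul_apply, Fin.sum_univ_two]
    norm_num
  have e4 : ((A ^ 4 : GL (Fin 2) K) : Matrix (Fin 2) (Fin 2) K) = !![-1, 0; 0, -1] := by
    have : A ^ 4 = A ^ 2 * A ^ 2 := by rw [← pow_add]
    rw [this, Units.val_mul, e2]
    ext i j
    fin_cases i <;> fin_cases j <;> simp [Matrix.mul_apply, Fin.sum_univ_two]
    · linear_combination 2 * h3
    · linear_combination h3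
    · linear_combination h3
    · linear_combination h3
  have e8 : A ^ 8 = 1 := by
    have : A ^ 8 = A ^ 4 * A ^ 4 := by rw [← pow_add]
    rw [this]
    apply Units.ext
    rw [Units.val_mul, e4]
    ext i j
    fin_cases i <;> fin_cases j <;> simp
  have h4 : ¬ A ^ 4 = 1 := by
    intro h
    rw [h, Units.val_one] at e4
    have := congrFun (congrFun e4 0) 0
    simp at this
    exact two_ne hK (by linear_combination this)
  have := Fact.mk Nat.prime_two
  have h5 : orderOf A = 2 ^ (2 + 1) := orderOf_eq_prime_pow (by simpa using h4) (by simpa using e8)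
  rw [h5]
  norm_num

/-- upper unitriangular matrices -/
def upG (t : K) : GL (Fin 2) K := GeneralLinearGroup.mkOfDetNeZero !![1, t; 0, 1] (by
  rw [Matrix.det_fin_two_of]
  simp)

section value

variable {L : Type w} [Field L] [Finite L] [Algebra K L] (θ : L →*₀ ℂ)

theorem psi_up {t : K} (ht : t ≠ 0) : psi (n := 2) (F := K) L θ (upG t) = -1 := by
  have hM : ((upG t : GL (Fin 2) K) : Matrix (Fin 2) (Fin 2) K) = !![1, t; 0, 1] := rfl
  have hcp : (Matrix.toLin' (!![1, t; 0, 1] : Matrix (Fin 2) (Fin 2) K)).charpoly = (X - C 1) ^ 2 := by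
    rw [Matrix.charpoly_toLin', Matrix.charpoly_fin_two, Matrix.trace_fin_two_of, Matrix.det_fin_two_of]
    simp only [mul_one, mul_zero, sub_zero, map_one, map_add]
    ring
  have hker : LinearMap.ker (aeval (Matrix.toLin' (!![1, t; 0, 1] : Matrix (Fin 2) (Fin 2) K)) (X - C (1 : K))) =
      Submodule.span K {(![1, 0] : Fin 2 → K)} := by
    ext v
    rw [LinearMap.mem_ker, Submodule.mem_span_singleton]
    rw [map_sub, aeval_X, aeval_C, LinearMap.sub_apply, Matrix.toLin'_apply, map_one, Module.End.one_apply]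
    constructor
    · intro h
      have h0 := congrFun h 0
      simp [Matrix.mulVec, dotProduct, Fin.sum_univ_two] at h0
      have h1 : v 1 = 0 := h0.resolve_left ht
      refine ⟨v 0, ?_⟩
      ext i
      fin_cases i
      · simp
      · simp [h1]
    · rintro ⟨c, rfl⟩
      ext i
      fin_cases i <;> simp [Matrix.mulVec, dotProduct, Fin.sum_univ_two]
  have hf := cusp_formula (V := Fin 2 → K) L θ (f := X - C 1) (monic_X_sub_C 1) (irreducible_X_sub_C 1)
    (g := Matrix.toLin' (!![1, t; 0, 1] : Matrix (Fin 2) (Fin 2) K)) (m := 2) hcp (k := 0) (by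
      rw [hker, finrank_span_singleton (by
        intro h
        have := congrFun h 0
        simp at this), natDegree_X_sub_C])
  have hlb : lb L θ (X - C (1 : K)) = 1 := by
    rw [lb, Polynomial.map_sub, Polynomial.map_X, Polynomial.map_C, roots_X_sub_C]
    simp
  rw [psi, cuspMat, hM, hf, hlb]
  simp

theorem psi_one' (hK : Fintype.card K = 3) : psi (n := 2) (F := K) L θ 1 = 2 := by
  have hK' : Nat.card K = 3 := by rw [Nat.card_eq_fintype_card, hK]
  rw [psi_one L θ (by norm_num), degP_eq_Ico, hK']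
  norm_num [Finset.prod_Ico_eq_prod_range]

theorem sum_up (hK : Fintype.card K = 3) : ∑ t : K, psi (n := 2) (F := K) L θ (upG t) = 0 := by
  classical
  have h1 : ∀ t : K, psi (n := 2) (F := K) L θ (upG t) = if t = 0 then 2 else -1 := by
    intro t
    split_ifs with h
    · rw [h]
      have : (upG 0 : GL (Fin 2) K) = 1 := by
        apply Units.ext
        change (!![1, 0; 0, 1] : Matrix (Fin 2) (Fin 2) K) = 1
        ext i j
        fin_cases i <;> fin_cases j <;> rfl
      rw [this, psi_one' θ hK]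
    · exact psi_up θ h
  have h2 : ∀ t : K, (if t = 0 then (2 : ℂ) else -1) = (if t = 0 then 3 else 0) - 1 := by
    intro t
    split_ifs <;> norm_num
  rw [Finset.sum_congr rfl fun t _ => (h1 t).trans (h2 t), Finset.sum_sub_distrib, Finset.sum_ite_eq',
    if_pos (Finset.mem_univ _), Finset.sum_const, Finset.card_univ, hK]
  norm_num

theorem psi_ne_zero (hK : Fintype.card K = 3) (hL : Module.finrank K L = 2) (hθ : Function.Injective θ)
    {A : GL (Fin 2) K} (hA : orderOf A = 8) : psi (n := 2) (F := K) L θ A ≠ 0 := by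
  have h3 := three_eq hK
  obtain ⟨hd, ht⟩ := of_order hK hA
  set M := (A : Matrix (Fin 2) (Fin 2) K) with hM
  have hK' : Nat.card K = 3 := by rw [Nat.card_eq_fintype_card, hK]
  have hcp : (Matrix.toLin' M).charpoly = X ^ 2 - C M.trace * X - 1 := by
    rw [Matrix.charpoly_toLin', Matrix.charpoly_fin_two, hd]
    simp
    ring
  have hmon : (X ^ 2 - C M.trace * X - 1 : K[X]).Monic := by
    rw [← hcp]
    exact LinearMap.charpoly_monic _
  have hdeg : (X ^ 2 - C M.trace * X - 1 : K[X]).natDegree = 2 := by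
    rw [← hcp, LinearMap.charpoly_natDegree, Module.finrank_fin_fun]
  have hirr : Irreducible (X ^ 2 - C M.trace * X - 1 : K[X]) := by
    rw [Polynomial.Monic.irreducible_iff_roots_eq_zero_of_degree_le_three hmon (by omega) (by omega)]
    rw [Multiset.eq_zero_iff_forall_notMem]
    intro x hx
    rw [mem_roots hmon.ne_zero, IsRoot.def] at hx
    simp only [eval_sub, eval_pow, eval_X, eval_mul, eval_C, eval_one] at hx
    by_cases hx0 : x = 0
    · rw [hx0] at hx
      apply one_ne_zero (α := K)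
      linear_combination -hx
    · have h4 := sq_one hK hx0
      have h5 : M.trace * x = 0 := by linear_combination h4 - hx
      rcases mul_eq_zero.1 h5 with h6 | h6
      · rw [h6] at ht
        apply one_ne_zero (α := K)
        linear_combination -ht
      · exact hx0 h6
  -- a root in `L`
  obtain ⟨l, hl⟩ : ∃ l : L, aeval l (X ^ 2 - C M.trace * X - 1 : K[X]) = 0 := by
    have hs := splits_of_natDegree_dvd (L := L) hirr (by rw [hdeg, hL])
    obtain ⟨l, hl⟩ := Polynomial.Splits.exists_eval_eq_zero hs (by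
      rw [Polynomial.degree_map]
      exact (Polynomial.degree_pos_of_irreducible hirr).ne')
    exact ⟨l, by rwa [aeval_def, ← eval_map]⟩
  have hmin : minpoly K l = X ^ 2 - C M.trace * X - 1 := (minpoly.eq_of_irreducible_of_monic hirr hl hmon).symm
  rw [psi, cuspMat, cusp_of_irreducible L θ (by rw [hcp]; exact hirr), hcp, ← hmin, lb_minpoly, hmin, hdeg, hK']
  rw [Module.finrank_fin_fun, Finset.sum_range_succ, Finset.sum_range_one, pow_zero, pow_one, pow_one, pow_one]
  have hl0 : l ≠ 0 := by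
    rintro rfl
    simp at hl
  have hθ0 : θ l ≠ 0 := (map_ne_zero θ).2 hl0
  intro h
  have h4 : θ l * (1 + θ (l ^ 2)) = 0 := by
    rw [mul_add, mul_one, ← map_mul, ← pow_succ']
    have : (-1 : ℂ) * (θ l + θ (l ^ 3)) = 0 := h
    linear_combination -this
  have h5 : θ (l ^ 2) = -1 := by
    have := (mul_eq_zero.1 h4).resolve_left hθ0
    linear_combination this
  have h6 : l ^ 4 = 1 := by
    apply hθ
    have : l ^ 4 = l ^ 2 * l ^ 2 := by rw [← pow_add]
    rw [this, map_mul, h5, map_one]
    norm_num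
  -- `l² = τ l + 1`
  have h7 : l ^ 2 = algebraMap K L M.trace * l + 1 := by
    simp only [map_sub, map_pow, map_mul, aeval_X, aeval_C, map_one] at hl
    linear_combination hl
  have h8 : (3 : L) = 0 := by
    rw [← map_ofNat (algebraMap K L) 3, h3, map_zero]
  have h9 : (algebraMap K L M.trace) ^ 2 = 1 := by rw [← map_pow, ht, map_one]
  have h10 : l ^ 4 = -1 := by
    have : l ^ 4 = (algebraMap K L M.trace * l + 1) ^ 2 := by rw [← h7, ← pow_mul]
    rw [this]
    linear_combination (algebraMap K L M.trace) ^ 2 * h7 + (algebraMap K L M.trace * l) * h9 + h9 +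
      (algebraMap K L M.trace * l + 1) * h8
  rw [h6] at h10
  have h11 : (2 : L) = 0 := by linear_combination h10
  have h12 : (1 : L) = 3 - 2 := by norm_num
  rw [h8, h11, sub_zero] at h12
  exact one_ne_zero h12

end value

/-- **The character.** -/
theorem exists_psi (hK : Fintype.card K = 3) : ∃ ψ : GL (Fin 2) K → ℂ, IsIrrCharacter (GL (Fin 2) K) ψ ∧
    (∑ t : K, ψ (upG t) = 0) ∧ (∀ A, orderOf A = 8 → conj (ψ A) = -ψ A ∧ ψ A ≠ 0) ∧
      ∀ A, ψ (GeneralLinearGroup.scalar (Fin 2) (-1 : Kˣ) * A) = -ψ A := by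
  classical
  have hK' : Nat.card K = 3 := by rw [Nat.card_eq_fintype_card, hK]
  obtain ⟨p, hp⟩ := CharP.exists K
  have hpp : Fact p.Prime := ⟨CharP.char_is_prime K p⟩
  have hnz : NeZero 2 := ⟨by omega⟩
  let L := FiniteField.Extension K p 2
  have hL : Module.finrank K L = 2 := FiniteField.finrank_extension K p 2
  have hfin : Finite L := Module.finite_of_finite K
  obtain ⟨θ, hθ⟩ := exists_theta L
  have hcL : Nat.card Lˣ = 8 := by
    rw [Nat.card_units, Module.natCard_eq_pow_finrank (K := K), hL, hK']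
    norm_num
  have hreg : Regular K 2 θ := by
    rw [regular_iff]
    intro i hi hi2 h
    have hi1 : i = 1 := by omega
    subst hi1
    rw [pow_one, hK'] at h
    obtain ⟨γ, hγ⟩ := IsCyclic.exists_ofOrder_eq_natCard (α := Lˣ)
    have h1 := hθ (h (γ : L))
    have h2 : γ ^ 3 = γ := Units.ext (by rw [Units.val_pow_eq_pow_val]; exact h1.symm)
    have h4 : γ ^ 2 = 1 := by
      have : γ ^ 2 * γ = 1 * γ := by rw [← pow_succ, h2, one_mul]
      exact mul_right_cancel this
    have h5 := orderOf_dvd_of_pow_eq_one h4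
    rw [hγ, hcL] at h5
    norm_num at h5
  have hneg : ∀ A : GL (Fin 2) K, psi L θ (GeneralLinearGroup.scalar (Fin 2) (-1 : Kˣ) * A) = -psi L θ A := by
    intro A
    rw [psi_scalar θ hL]
    have h1 : θ (algebraMap K L ((-1 : Kˣ) : K)) = -1 := by
      rw [Units.val_neg, Units.val_one, map_neg, map_one]
      have h2 : θ (-1) * θ (-1) = 1 := by rw [← map_mul, neg_mul_neg, one_mul, map_one]
      rcases mul_self_eq_one_iff.1 h2 with h3 | h3
      · exfalso
        have h4 : (-1 : L) = 1 := hθ (by rw [h3, map_one])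
        have h5 : (2 : L) = 0 := by linear_combination -h4
        have h6 : algebraMap K L 2 = 0 := by rw [map_ofNat]; exact h5
        exact two_ne hK ((map_eq_zero _).1 h6)
      · exact h3
    rw [h1, neg_one_mul]
  have hirr := psi_isIrr (n := 2) θ hL hreg
  have hcl := psi_isClass (F := K) (n := 2) L θ
  refine ⟨psi L θ, hirr, sum_up θ hK, fun A hA => ?_, hneg⟩
  obtain ⟨B, hB⟩ := conj_cube hK hA
  have h4 := pow_four hK hA
  have e1 : psi L θ (A ^ 3) = psi L θ A := by
    rw [← hB]; exact hcl A B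
  have e2 : A⁻¹ = GeneralLinearGroup.scalar (Fin 2) (-1 : Kˣ) * A ^ 3 := by
    rw [← h4, ← pow_add]
    have h8 := pow_orderOf_eq_one A
    rw [hA] at h8
    rw [inv_eq_iff_mul_eq_one, ← pow_succ']
    exact h8
  have e3 : conj (psi L θ A) = psi L θ A⁻¹ := (Core.isCharacter_apply_inv (Core.isIrr_isCharacter hirr) A).symm
  refine ⟨?_, ?_⟩
  · rw [e3, e2, hneg, e1]
  · exact psi_ne_zero θ hK hL hθ hA

end Cfsg.Agent.H139.Van.G2Three
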