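import Mathlib
import Cfsg.Prelude.Def_ChevD4
import Cfsg.Prelude.Def_ChevWords

/-!
# Kernel checks for `28 × 28` matrices modulo small primes (helper139)

A row is a natural number with the digits in base `4`.
-/

set_option autoImplicit false

namespace Cfsg.Agent.H139.Van.Tab28

open Cfsg.Lie

/-- `force n f` is `f n`, but the kernel evaluates `n` to a literal first. -/
@[reducible] def force {α : Sort _} (n : ℕ) (f : ℕ → α) : α :=
  Nat.rec (f 0) (fun k _ => f (Nat.succ k)) n

theorem force_eq {α : Sort _} (n : ℕ) (f : ℕ → α) : force n f = f n := by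
  cases n <;> rfl

/-- the scalar product of two rows -/
def dot (a b : ℕ) : ℕ → ℕ
  | 0 => 0
  | k + 1 => dot a b k + (a / 4 ^ k % 4) * (b / 4 ^ k % 4)

theorem dot_eq (a b n : ℕ) : dot a b n = ∑ k : Fin n, (a / 4 ^ (k : ℕ) % 4) * (b / 4 ^ (k : ℕ) % 4) := by
  induction n with
  | zero => simp [dot]
  | succ n ih => rw [dot, ih, Fin.sum_univ_castSucc]; rfl

/-- the matrix -/
def M (p : ℕ) (L : List ℕ) : Matrix (Fin 28) (Fin 28) (ZMod p) := fun i j => ((L.getD i 0 / 4 ^ (j : ℕ) % 4 : ℕ) : ZMod p)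

/-- the check of a product `A * Bᵀ = C` -/
def chk (p : ℕ) (A BT C : List ℕ) : Bool :=
  (List.range 28).all fun i => force (A.getD i 0) fun a => force (C.getD i 0) fun c =>
    (List.range 28).all fun j => force (BT.getD j 0) fun b => dot a b 28 % p == c / 4 ^ j % 4

theorem mul_of_chk {p : ℕ} {A BT C : List ℕ} (h : chk p A BT C = true) : M p A * (M p BT).transpose = M p C := by
  ext i j
  unfold chk at h
  rw [List.all_eq_true] at h
  have h1 := h i (List.mem_range.2 i.2)
  rw [force_eq, force_eq, List.all_eq_true] at h1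
  have h2 := h1 j (List.mem_range.2 j.2)
  rw [force_eq, beq_iff_eq, dot_eq] at h2
  rw [Matrix.mul_apply]
  change ∑ k : Fin 28, ((A.getD i 0 / 4 ^ (k : ℕ) % 4 : ℕ) : ZMod p) * ((BT.getD j 0 / 4 ^ (k : ℕ) % 4 : ℕ) : ZMod p) =
    ((C.getD i 0 / 4 ^ (j : ℕ) % 4 : ℕ) : ZMod p)
  rw [← h2, ZMod.natCast_mod, Nat.cast_sum]
  refine Finset.sum_congr rfl fun k _ => ?_
  rw [Nat.cast_mul]

/-- the check of a transpose -/
def chkT (A AT : List ℕ) : Bool :=
  (List.range 28).all fun i => force (A.getD i 0) fun a =>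
    (List.range 28).all fun j => force (AT.getD j 0) fun b => a / 4 ^ j % 4 == b / 4 ^ i % 4

theorem tr_of_chk {A AT : List ℕ} (h : chkT A AT = true) (p : ℕ) : (M p AT).transpose = M p A := by
  ext i j
  unfold chkT at h
  rw [List.all_eq_true] at h
  have h1 := h i (List.mem_range.2 i.2)
  rw [force_eq, List.all_eq_true] at h1
  have h2 := h1 j (List.mem_range.2 j.2)
  rw [force_eq, beq_iff_eq] at h2
  change ((AT.getD j 0 / 4 ^ (i : ℕ) % 4 : ℕ) : ZMod p) = ((A.getD i 0 / 4 ^ (j : ℕ) % 4 : ℕ) : ZMod p)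
  rw [h2]

/-- the numbering of the basis -/
def e : chevD4.Idx ≃ Fin 28 := finSumFinEquiv

/-- the matrix on the basis of the Lie algebra -/
def N (p : ℕ) (L : List ℕ) : Matrix chevD4.Idx chevD4.Idx (ZMod p) := (M p L).submatrix e e

theorem N_mul {p : ℕ} {A BT C : List ℕ} (h : chk p A BT C = true) : N p A * (N p BT).transpose = N p C := by
  unfold N
  rw [← mul_of_chk h, Matrix.transpose_submatrix, Matrix.submatrix_mul_equiv]

theorem N_tr {A AT : List ℕ} (h : chkT A AT = true) (p : ℕ) : (N p AT).transpose = N p A := by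
  unfold N
  rw [← tr_of_chk h, Matrix.transpose_submatrix]

end Cfsg.Agent.H139.Van.Tab28
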