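import Cfsg.Agent.H115.HC.TwDFour
import Cfsg.Agent.H139.Van.CuspPow
import Cfsg.Agent.H139.Van.DzG2

/-!
# Characters of `p`-defect zero of `³D₄(q)` (helper139)

* `dz_of_not_dvd` : `p ∤ q (q² - 1)`, `p ∤ q² + q + 1`;
* `char_one` : the characters induced from the parabolic subgroup of the outer nodes, `q ≥ 4`;
* `dz_of_dvd` : `p ∣ q² + q + 1`, `p ≠ 3`, `q ≥ 4`.
-/

set_option autoImplicit false
set_option linter.unusedSectionVars false

open Cfsg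

namespace Cfsg.Agent.H139.Van.TwD4

open CoxeterSystem Cfsg.Agent.ChevalleyStructure.CoxeterGeom Cfsg.Agent.Tits.Roots Cfsg.Agent.Tits.Core
  Cfsg.Agent.Tits.RootComb Cfsg.Agent.Nodes.Comb Cfsg.Agent.Nodes.Reps Cfsg.Agent.Nodes.BNOf
  Cfsg.Agent.Nodes.BNOf.RGD Cfsg.Agent.Nodes.RGDChev Cfsg.Agent.Nodes.RGDFold
open Cfsg.Agent.Nodes.Bruhat Cfsg.Agent.Nodes.LeviDec
open Cfsg.Lie Cfsg.Agent.ChevalleyStructure Cfsg.Agent.ChevalleyStructure.TwistedU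
open Cfsg.Agent.Nodes.RGDFoldSL
open Cfsg.Agent.ChevalleyStructure.SL2Hom (up lo mem_closure_SL2)
open Cfsg.Agent.BiChar.TwDFour
open Cfsg.Agent.H115.HC.TwDFour Cfsg.Agent.H139.Van.CuspPow Cfsg.Agent.H139.Van.DzG2 Cfsg.Agent.H720.PV

/-- the short relative root of height three -/
theorem cls_mid : ∀ k < chevD4.nroots, (V chevD4 Nodes.RGDTwD4.J k = ![1, 2] ↔ k ∈ [17, 20, 21]) := by decide +kernel

theorem cls_mid' : ∀ k < chevD4.nroots, (V chevD4 Nodes.RGDTwD4.J k = -![1, 2] ↔ k ∈ [2, 3, 6]) := by decide +kernel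

theorem comm_check1 : ∀ s ∈ [17, 20, 21, 2, 3, 6], ∀ r ∈ [14, 9], r < chevD4.nroots ∧ s < chevD4.nroots ∧ s ≠ r ∧
    s ≠ chevD4.neg r ∧ chevD4.commTerms r s = [] := by decide +kernel

theorem comm_xG1 {K : Type*} [Field K] {s : ℕ} (hs : s ∈ [17, 20, 21, 2, 3, 6]) {r : ℕ} (hr : r ∈ [14, 9]) (t u : K) :
    Elts.xG Nodes.RGDTwD4.hp.inList s u * Elts.xG Nodes.RGDTwD4.hp.inList r t =
      Elts.xG Nodes.RGDTwD4.hp.inList r t * Elts.xG Nodes.RGDTwD4.hp.inList s u := by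
  obtain ⟨h1, h0, h2, h3, h4⟩ := comm_check1 s hs r hr
  have h5 := Nodes.RGDChev.comm_xG Nodes.RGDTwD4.hp h1 h0 h2 h3 (-t) (-u)
  have h6 : chevD4.commWord K r s (-t) (-u) = [] := by
    show (chevD4.commTerms r s).map _ = []
    rw [h4, List.map_nil]
  rw [h6, Elts.wordG_nil, commutatorElement_eq_one_iff_mul_comm, Elts.xG_inv, Elts.xG_inv, _root_.neg_neg,
    _root_.neg_neg] at h5
  exact h5

theorem rspan_comm1 {K : Type*} [Field K] {A B : List ℕ} (hB : ∀ s ∈ B, s ∈ [17, 20, 21, 2, 3, 6])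
    (hA : ∀ r ∈ A, r ∈ [14, 9])
    {x y : GL chevD4.Idx K} (hx : x ∈ rspan (Elts.xG (F := K) Nodes.RGDTwD4.hp.inList) {k | k ∈ B})
    (hy : y ∈ rspan (Elts.xG (F := K) Nodes.RGDTwD4.hp.inList) {k | k ∈ A}) : x * y = y * x := by
  have h1 : rspan (Elts.xG (F := K) Nodes.RGDTwD4.hp.inList) {k | k ∈ B} ≤
      Subgroup.centralizer (rspan (Elts.xG (F := K) Nodes.RGDTwD4.hp.inList) {k | k ∈ A} : Set _) := by
    rw [Subgroup.le_centralizer_iff]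
    refine (Subgroup.closure_le _).2 ?_
    rintro _ ⟨r, hr, t, rfl⟩
    rw [SetLike.mem_coe, Subgroup.mem_centralizer_iff]
    intro z hz
    refine Subgroup.closure_induction (p := fun z _ => z * Elts.xG Nodes.RGDTwD4.hp.inList r t =
      Elts.xG Nodes.RGDTwD4.hp.inList r t * z) ?_ ?_ ?_ ?_ hz
    · rintro _ ⟨s', hs', u, rfl⟩
      exact comm_xG1 (hB s' hs') (hA r hr) t u
    · rw [one_mul, mul_one]
    · intro a b _ _ ha hb
      rw [mul_assoc, hb, ← mul_assoc, ha, mul_assoc]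
    · intro a _ ha
      have : Commute a (Elts.xG Nodes.RGDTwD4.hp.inList r t) := ha
      exact this.inv_left
  exact ((Subgroup.mem_centralizer_iff.1 (h1 hx)) y hy).symm

variable {K : Type} [Field K] {q : ℕ} {φ : K →+* K}

section

variable (hφ : ∀ x, φ x = x ^ q) (hle : twistedD4 K q ≤ D4Fixed.fix φ)

theorem comm_mid {B : List ℕ} (hB : ∀ s ∈ B, s ∈ [17, 20, 21, 2, 3, 6]) {x : ↥(twistedD4 K q)}
    (hxs : (x : GL chevD4.Idx K) ∈ rspan (Elts.xG (F := K) Nodes.RGDTwD4.hp.inList) {k | k ∈ B})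
    {p : ℕ} [Fact p.Prime] [Fintype K] [CharP K p] (hK : Fintype.card K = q ^ 3)
    (g : Matrix.SpecialLinearGroup (Fin 2) (Fx φ ((Nodes.RGDTwNode.D4.rest 0).length + 1))) :
    Ph hφ hle 0 g * x = x * Ph hφ hle 0 g := by
  have h1 := Ph_mem (p := p) hφ hle hK 0 g
  have h2 : Nodes.RGDTwD4.X φ q (sr 0) ⊔ Nodes.RGDTwD4.X φ q (-sr 0) ≤ Subgroup.centralizer {x} := by
    refine sup_le ?_ ?_
    · intro y hy
      rw [Subgroup.mem_centralizer_singleton_iff]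
      have h3 : (y : GL chevD4.Idx K) ∈ R chevD4 Nodes.RGDTwD4.hp K Nodes.RGDTwD4.J (D4Fixed.sig φ) (sr 0) :=
        Subgroup.mem_subgroupOf.1 hy
      rw [R_eq Nodes.RGDTwD4.cls0 (by decide +kernel)] at h3
      exact Subtype.ext (rspan_comm1 hB (A := [14]) (by decide) hxs h3.1).symm
    · intro y hy
      rw [Subgroup.mem_centralizer_singleton_iff]
      have h3 : (y : GL chevD4.Idx K) ∈ R chevD4 Nodes.RGDTwD4.hp K Nodes.RGDTwD4.J (D4Fixed.sig φ) (-sr 0) :=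
        Subgroup.mem_subgroupOf.1 hy
      rw [R_eq Nodes.RGDTwD4.cls0' (by decide +kernel)] at h3
      exact Subtype.ext (rspan_comm1 hB (A := [9]) (by decide) hxs h3.1).symm
  exact Subgroup.mem_centralizer_singleton_iff.1 (h2 h1)

/-- the torus of the central node acts faithfully -/
theorem Ph0_ne_one {d : Fx φ ((Nodes.RGDTwNode.D4.rest 0).length + 1)} (hd : (d : K) ≠ 0) (hd1 : (d : K) ≠ 1) :
    Ph hφ hle 0 (hS d) ≠ 1 := by
  intro h0
  have hD : Elts.InList chevD4 := Nodes.RGDTwD4.hp.inList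
  have tab : chevD4.simple 1 = 14 ∧ chevD4.cartan 1 18 = -1 ∧ 1 < chevD4.rank ∧ 18 < chevD4.nroots := by
    decide +kernel
  obtain ⟨s1, c1, r1, rn⟩ := tab
  have h1 : Elts.hG hD 14 (d : K) = 1 := by
    rw [← coe_hS0 hφ hle d, h0]
    rfl
  have h2 := Cfsg.Agent.ETable.Exc.hG_xG hD r1 rn hd 1
  rw [s1, c1, h1, one_mul, mul_one, mul_one, zpow_neg, zpow_one] at h2
  have h3 := Elts.xG_injective hD rn h2
  exact hd1 (by rw [← inv_inv (d : K), ← h3, inv_one])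

end

variable [Fintype K]

/-- the order of the root group of the outer nodes -/
theorem card_X1 (hφ : ∀ x, φ x = x ^ q) (hle : twistedD4 K q ≤ D4Fixed.fix φ)
    (hK : Fintype.card K = q ^ 3) : Nat.card (Nodes.RGDTwD4.X φ q (sr 1)) = q ^ 3 := by
  have h1 : Nat.card (Fx φ ((Nodes.RGDTwNode.D4.rest 1).length + 1)) = q ^ 3 := by
    rw [← hK, ← Nat.card_eq_fintype_card]
    exact Nat.card_congr (Equiv.subtypeUnivEquiv fun t => mem_Fx_three hK hφ t)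
  refine Eq.trans ?_ h1
  symm
  refine Nat.card_congr (Equiv.ofBijective (fun t => (⟨Ph hφ hle 1 (up t), (mem_X hφ hle 1 _).2 ⟨t, rfl⟩⟩ :
    Nodes.RGDTwD4.X φ q (sr 1))) ⟨fun a b hab => up_inj hφ hle 1 (congrArg Subtype.val hab), ?_⟩)
  rintro ⟨g, hg⟩
  obtain ⟨t, ht⟩ := (mem_X hφ hle 1 g).1 hg
  exact ⟨t, Subtype.ext ht.symm⟩

/-- the index of the parabolic subgroup -/
theorem index_eq1 {p : ℕ} [Fact p.Prime] [CharP K p] (hφ : ∀ x, φ x = x ^ q)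
    (hle : twistedD4 K q ≤ D4Fixed.fix φ) (hq : IsPrimePow q) (hK : Fintype.card K = q ^ 3) :
    (PJ cs Nodes.RGDTwD4.isCartan (Nodes.RGDTwD4.T K q) (Nodes.RGDTwD4.X φ q) {1}).index =
      (q + 1) * (q ^ 8 + q ^ 4 + 1) := by
  have : Finite CoxeterMatrix.G₂.Group := Nodes.RGDChev.finite_W Cfsg.Agent.BiChar.GTwo.isType cs
  have R := Nodes.RGDTwD4.rgd (K := K) cs hK hφ p
  have hpp : p.Prime := Fact.out
  obtain ⟨f, hf, hqf⟩ : ∃ f, f ≠ 0 ∧ q = p ^ f := by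
    obtain ⟨p', k, hp', hk, e⟩ := hq
    obtain ⟨m, -, hm⟩ := FiniteField.card K p
    have h1 : p' = p := by
      have h2 : p' ∣ p ^ (m : ℕ) := by
        rw [← hm, hK, ← e]
        exact dvd_pow (dvd_pow_self p' hk.ne') (by norm_num)
      exact (Nat.prime_dvd_prime_iff_eq hp'.nat_prime hpp).1 (hp'.nat_prime.dvd_of_dvd_pow h2)
    exact ⟨k, hk.ne', by rw [← e, h1]⟩
  have hpr : Cfsg.Agent.H35.PoinNum.pr (p ^ f) [2, 6] = (q ^ 2 - 1) * (q ^ 6 - 1) := by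
    rw [Cfsg.Agent.H35.PoinNum.pr_cons, Cfsg.Agent.H35.PoinNum.pr_cons, Cfsg.Agent.H35.PoinNum.pr_nil, mul_one, hqf]
  have hN : Nat.card ↥(PJ cs Nodes.RGDTwD4.isCartan (Nodes.RGDTwD4.T K q) (Nodes.RGDTwD4.X φ q) {1}) =
      (q ^ 3 + 1) * Nat.card ↥(RGD.B cs Nodes.RGDTwD4.isCartan (Nodes.RGDTwD4.T K q) (Nodes.RGDTwD4.X φ q)) := by
    have h1 := Cfsg.Agent.H554.RG.relIndex_B_PJ_singleton R 1
    rw [card_X1 hφ hle hK] at h1
    rw [← h1, mul_comm]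
    have h2 := Subgroup.relIndex_mul_relIndex ⊥ _ _ bot_le (B_le_PJ (cs := cs)
      (h := Nodes.RGDTwD4.isCartan) (T := Nodes.RGDTwD4.T K q) (X := Nodes.RGDTwD4.X φ q) (J := {1}))
    rw [Subgroup.relIndex_bot_left, Subgroup.relIndex_bot_left] at h2
    exact h2.symm
  have hT : 1 * Nat.card (Nodes.RGDTwD4.T K q) = (q - 1) * (q ^ 3 - 1) := by
    rw [one_mul, ← D4H1.card_H1 hq hK hφ]
    exact Nat.card_congr (Subgroup.subgroupOfEquivOfLe inf_le_right).toEquiv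
  have h1 := Cfsg.Agent.H35.ExcIdx.index_eq (p := p) R (GG_top hφ hK) hN (d := 1) (b := f * 12)
    (P := Cfsg.Agent.H35.PoinNum.pr (p ^ f) [2, 6] * (q ^ 8 + q ^ 4 + 1)) (by
      rw [Nat.dvd_one]
      exact hpp.one_lt.ne') hT (by
      rw [one_mul, Cfsg.Agent.S1067.result hq hK, hpr, pow_mul, ← hqf]
      ring) (by
      rw [hpp.dvd_mul, not_or]
      refine ⟨Cfsg.Agent.H35.ExcIdx.not_dvd_pr hpp hf _ (by simp), fun h2 => ?_⟩
      have h3 : p ∣ q := by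
        rw [hqf]
        exact dvd_pow_self p hf
      have h4 : p ∣ q ^ 8 + q ^ 4 := dvd_add (dvd_pow h3 (by norm_num)) (dvd_pow h3 (by norm_num))
      exact hpp.one_lt.ne' (Nat.dvd_one.1 ((Nat.dvd_add_right h4).1 h2)))
  rw [hpr] at h1
  obtain ⟨m, hm⟩ := Nat.exists_eq_add_of_le hq.two_le
  rw [hm] at h1 ⊢
  have e1 : 2 + m - 1 = m + 1 := by omega
  have e2 : (2 + m) ^ 2 - 1 = (m + 1) * (2 + m + 1) := by
    rw [show (2 + m) ^ 2 = (m + 1) * (2 + m + 1) + 1 by ring]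
    rfl
  have e3 : (2 + m) ^ 3 - 1 = (m + 1) * ((2 + m) ^ 2 + (2 + m) + 1) := by
    rw [show (2 + m) ^ 3 = (m + 1) * ((2 + m) ^ 2 + (2 + m) + 1) + 1 by ring]
    rfl
  have e6 : (2 + m) ^ 6 - 1 = (m + 1) * (((2 + m) ^ 2 + (2 + m) + 1) * ((2 + m) ^ 3 + 1)) := by
    rw [show (2 + m) ^ 6 = (m + 1) * (((2 + m) ^ 2 + (2 + m) + 1) * ((2 + m) ^ 3 + 1)) + 1 by ring]
    rfl
  rw [e1, e2, e3, e6] at h1
  have h3 : 0 < ((2 + m) ^ 3 + 1) * ((m + 1) * ((m + 1) * ((2 + m) ^ 2 + (2 + m) + 1))) := by positivity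
  apply Nat.eq_of_mul_eq_mul_right h3
  rw [← mul_assoc, h1]
  ring

/-- **The characters of `³D₄(q)` induced from the parabolic subgroup of the outer nodes, `q ≥ 4`.** -/
theorem char_one (hq : IsPrimePow q) (h4 : 4 ≤ q) (hK : Fintype.card K = q ^ 3) :
    ∃ (χ : IrrCharacter ↥(twistedD4 K q)) (m : ℕ),
      charDegree (χ : ↥(twistedD4 K q) → ℂ) = ((q + 1) * (q ^ 8 + q ^ 4 + 1)) * m ∧
      ∀ n : ℕ, Odd n → n ∣ q ^ 3 - 1 → n ∣ m := by
  classical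
  obtain ⟨p, hch⟩ := CharP.exists K
  have : Fact p.Prime := ⟨CharP.char_is_prime K p⟩
  obtain ⟨φ, hφ⟩ := D4Fixed.exists_frob hq hK
  have hle := D4Fixed.twisted_le_fix hK hφ
  have : Finite CoxeterMatrix.G₂.Group := Nodes.RGDChev.finite_W Cfsg.Agent.BiChar.GTwo.isType cs
  have Rg := Nodes.RGDTwD4.rgd (K := K) cs hK hφ p
  have hfin : Finite (Fx φ ((Nodes.RGDTwNode.D4.rest 0).length + 1)) := inferInstance
  have hfin1 : Finite (Fx φ ((Nodes.RGDTwNode.D4.rest 1).length + 1)) := inferInstance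
  have hcF : Nat.card (Fx φ ((Nodes.RGDTwNode.D4.rest 0).length + 1)) = q := by
    rw [← ChevalleyStructure.D4U.card_fix_field hq.one_lt hK hφ]
    refine Nat.card_congr (Equiv.subtypeEquivRight fun a => ?_)
    rw [mem_Fx]
    exact Iff.rfl
  have hcF1 : Nat.card (Fx φ ((Nodes.RGDTwNode.D4.rest 1).length + 1)) = q ^ 3 := by
    rw [← hK, ← Nat.card_eq_fintype_card]
    exact Nat.card_congr (Equiv.subtypeUnivEquiv fun t => mem_Fx_three hK hφ t)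
  -- an element of the torus
  obtain ⟨c, hc0, hc2⟩ : ∃ c : Fx φ ((Nodes.RGDTwNode.D4.rest 0).length + 1), c ≠ 0 ∧ c ^ 2 ≠ 1 := by
    obtain ⟨g, hg⟩ := IsCyclic.exists_generator (α := (Fx φ ((Nodes.RGDTwNode.D4.rest 0).length + 1))ˣ)
    have h2 : orderOf g = q - 1 := by
      rw [orderOf_eq_card_of_forall_mem_zpowers hg, Nat.card_units, hcF]
    refine ⟨g, g.ne_zero, fun h4' => ?_⟩
    have h5 : g ^ 2 = 1 := Units.ext (by rw [Units.val_pow_eq_pow_val, h4', Units.val_one])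
    have h6 := Nat.le_of_dvd (by norm_num) (orderOf_dvd_of_pow_eq_one h5)
    rw [h2] at h6
    omega
  have hcc : c * c ≠ 0 := mul_ne_zero hc0 hc0
  obtain ⟨χ, m, h1, h2, -⟩ := exists_chi_G2_one Rg (GG_top hφ hK) T_comm (by decide)
    (by
      rw [card_X1 hφ hle hK]
      exact (le_trans (by norm_num) h4).trans (Nat.le_self_pow (by norm_num) q)) (a := Ph hφ hle 0 (hS c))
    (Cfsg.Agent.BiChar.TwDFour.Ph_hS hφ hle 0 hc0)
    (by
      rw [← map_mul, hS_mul hc0 hc0]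
      refine Ph0_ne_one hφ hle (fun h => hcc (Subtype.ext h)) (fun h => hc2 ?_)
      rw [sq]
      exact Subtype.ext h)
    (by
      rw [← Cfsg.Agent.BiChar.TwDFour.Ph_wS hφ hle 0, ← map_inv, ← map_mul, ← map_mul, wS_hS hc0, map_inv])
    (by
      intro u hu
      have hu' : (u : GL chevD4.Idx K) ∈ R chevD4 Nodes.RGDTwD4.hp K Nodes.RGDTwD4.J (D4Fixed.sig φ) ![1, 2] :=
        Subgroup.mem_subgroupOf.1 hu
      rw [R_eq cls_mid (by decide +kernel)] at hu'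
      exact comm_mid hφ hle (B := [17, 20, 21]) (by decide) hu'.1 (p := p) hK _)
    (by
      intro u hu
      have hu' : (u : GL chevD4.Idx K) ∈ R chevD4 Nodes.RGDTwD4.hp K Nodes.RGDTwD4.J (D4Fixed.sig φ) (-![1, 2]) :=
        Subgroup.mem_subgroupOf.1 hu
      rw [R_eq cls_mid' (by decide +kernel)] at hu'
      exact comm_mid hφ hle (B := [2, 3, 6]) (by decide) hu'.1 (p := p) hK _)
  rw [index_eq1 (p := p) hφ hle hq hK] at h1
  refine ⟨χ, m, h1, fun n hn hnd => ?_⟩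
  -- an element of order `n` of the torus
  obtain ⟨d, hd⟩ : ∃ d : (Fx φ ((Nodes.RGDTwNode.D4.rest 1).length + 1))ˣ, orderOf d = n := by
    obtain ⟨g, hg⟩ := IsCyclic.exists_generator (α := (Fx φ ((Nodes.RGDTwNode.D4.rest 1).length + 1))ˣ)
    have h3 : orderOf g = q ^ 3 - 1 := by
      rw [orderOf_eq_card_of_forall_mem_zpowers hg, Nat.card_units, hcF1]
    obtain ⟨k, hk⟩ := hnd
    refine ⟨g ^ k, ?_⟩
    have hk0 : k ≠ 0 := by
      rintro rfl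
      rw [mul_zero] at hk
      have h5 : 4 ^ 3 ≤ q ^ 3 := Nat.pow_le_pow_left h4 3
      omega
    have hn0 : 0 < n := hn.pos
    rw [orderOf_pow' g hk0, h3, hk, Nat.gcd_mul_left_left, Nat.mul_div_cancel _ (Nat.pos_of_ne_zero hk0)]
  have h1S : hS (1 : Fx φ ((Nodes.RGDTwNode.D4.rest 1).length + 1)) = 1 := by
    apply Subtype.ext
    rw [coe_hS one_ne_zero, inv_one]
    exact Matrix.one_fin_two.symm
  have key : ∀ (e : (Fx φ ((Nodes.RGDTwNode.D4.rest 1).length + 1))ˣ) (k : ℕ),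
      hS (e : Fx φ ((Nodes.RGDTwNode.D4.rest 1).length + 1)) ^ k =
      hS ((e : Fx φ ((Nodes.RGDTwNode.D4.rest 1).length + 1)) ^ k) := by
    intro e k
    induction k with
    | zero => rw [pow_zero, pow_zero, h1S]
    | succ k ih => rw [pow_succ, ih, hS_mul (pow_ne_zero _ e.ne_zero) e.ne_zero, ← pow_succ]
  have hpowP : ∀ k : ℕ, (Ph hφ hle 1 (hS (d : Fx φ ((Nodes.RGDTwNode.D4.rest 1).length + 1)))) ^ k =
      Ph hφ hle 1 (hS ((d ^ k : (Fx φ ((Nodes.RGDTwNode.D4.rest 1).length + 1))ˣ) :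
        Fx φ ((Nodes.RGDTwNode.D4.rest 1).length + 1))) := by
    intro k
    rw [← map_pow, key, Units.val_pow_eq_pow_val]
  -- nontrivial powers are regular
  have hfree : ∀ k : ℕ, d ^ k ≠ 1 → ∀ t : Fx φ ((Nodes.RGDTwNode.D4.rest 1).length + 1),
      (Ph hφ hle 1 (hS (d : Fx φ ((Nodes.RGDTwNode.D4.rest 1).length + 1)))) ^ k * Ph hφ hle 1 (up t) =
        Ph hφ hle 1 (up t) * (Ph hφ hle 1 (hS (d : Fx φ ((Nodes.RGDTwNode.D4.rest 1).length + 1)))) ^ k → t = 0 := by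
    intro k hk t ht
    rw [hpowP] at ht
    refine free hφ hle (Units.ne_zero _) ?_ ht
    intro h3
    apply hk
    have h4 : (d ^ k) ^ 2 = 1 := Units.ext (by rw [Units.val_pow_eq_pow_val, h3, Units.val_one])
    have h5 : orderOf (d ^ k) ∣ 2 := orderOf_dvd_of_pow_eq_one h4
    have h6 : orderOf (d ^ k) ∣ n := by rw [← hd]; exact orderOf_pow_dvd k
    have h7 : orderOf (d ^ k) ∣ 1 := by
      have := Nat.dvd_gcd h5 h6
      rwa [Nat.coprime_two_left.2 hn] at this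
    exact orderOf_eq_one_iff.1 (Nat.dvd_one.1 h7)
  have hord : orderOf (Ph hφ hle 1 (hS (d : Fx φ ((Nodes.RGDTwNode.D4.rest 1).length + 1)))) = n := by
    apply Nat.dvd_antisymm
    · refine orderOf_dvd_of_pow_eq_one ?_
      rw [hpowP, ← hd, pow_orderOf_eq_one, Units.val_one, h1S, map_one]
    · rw [← hd]
      by_contra hcon
      have h3 : d ^ orderOf (Ph hφ hle 1 (hS (d : Fx φ ((Nodes.RGDTwNode.D4.rest 1).length + 1)))) ≠ 1 :=
        fun h => hcon (orderOf_dvd_of_pow_eq_one h)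
      have h4 := hfree _ h3 1 (by rw [pow_orderOf_eq_one, one_mul, mul_one])
      exact one_ne_zero h4
  rw [← hord]
  refine h2 _ (Cfsg.Agent.BiChar.TwDFour.Ph_hS hφ hle 1 d.ne_zero) ?_
  intro y hy hy1 u hu huc
  obtain ⟨t, rfl⟩ := (mem_X hφ hle 1 u).1 hu
  have hyp : y ∈ Submonoid.powers (Ph hφ hle 1 (hS (d : Fx φ ((Nodes.RGDTwNode.D4.rest 1).length + 1)))) := by
    rwa [mem_powers_iff_mem_zpowers]
  obtain ⟨k, rfl⟩ := hyp
  have ht := hfree k (by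
    intro h3
    apply hy1
    change (Ph hφ hle 1 (hS (d : Fx φ ((Nodes.RGDTwNode.D4.rest 1).length + 1)))) ^ k = 1
    rw [hpowP, h3, Units.val_one, h1S, map_one]) t huc
  subst ht
  have h0 : (up 0 : Matrix.SpecialLinearGroup (Fin 2) (Fx φ ((Nodes.RGDTwNode.D4.rest 1).length + 1))) = 1 := by
    apply Subtype.ext
    exact Matrix.one_fin_two.symm
  rw [h0, map_one]

/-! ### arithmetic -/

theorem arith_a {q : ℕ} (hq : 2 ≤ q) : q ^ 12 * (q ^ 2 - 1) * (q ^ 6 - 1) * (q ^ 8 + q ^ 4 + 1) =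
    (q ^ 3 + 1) * (q ^ 8 + q ^ 4 + 1) * (q ^ 12 * ((q + 1) * (q - 1) * ((q - 1) * (q ^ 2 + q + 1)))) := by
  obtain ⟨m, rfl⟩ := Nat.exists_eq_add_of_le hq
  have e1 : 2 + m - 1 = m + 1 := by omega
  have e2 : (2 + m) ^ 2 - 1 = (m + 1) * (2 + m + 1) := by
    rw [show (2 + m) ^ 2 = (m + 1) * (2 + m + 1) + 1 by ring]
    rfl
  have e6 : (2 + m) ^ 6 - 1 = (m + 1) * (((2 + m) ^ 2 + (2 + m) + 1) * ((2 + m) ^ 3 + 1)) := by
    rw [show (2 + m) ^ 6 = (m + 1) * (((2 + m) ^ 2 + (2 + m) + 1) * ((2 + m) ^ 3 + 1)) + 1 by ring]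
    rfl
  rw [e1, e2, e6]
  ring

/-- if `p ∤ C` and `N = d * s * C` then the `p`-part of `N` divides `d` times the `p`-part of `s` -/
theorem pow_dvd_of_two {N d s C p : ℕ} (hp : p.Prime) (hN : N = d * s * C) (hC : ¬ p ∣ C) (hN0 : N ≠ 0) :
    p ^ N.factorization p ∣ d * p ^ s.factorization p := by
  have hd0 : d ≠ 0 := by rintro rfl; simp at hN; exact hN0 hN
  have hs0 : s ≠ 0 := by rintro rfl; simp at hN; exact hN0 hN
  have h1 := pow_dvd_of hp hN hC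
  have h2 : N.factorization p ≤ (d * s).factorization p :=
    (hp.pow_dvd_iff_le_factorization (mul_ne_zero hd0 hs0)).1 h1
  rw [Nat.factorization_mul hd0 hs0, Finsupp.add_apply] at h2
  refine (pow_dvd_pow p h2).trans ?_
  rw [pow_add]
  exact mul_dvd_mul (Nat.ordProj_dvd d p) (dvd_refl _)

theorem dz_of_not_dvd (hq : IsPrimePow q) (hK : Fintype.card K = q ^ 3) {p : ℕ} [hpf : Fact p.Prime] (hpq : ¬ p ∣ q)
    (h1 : ¬ p ∣ q - 1) (h2 : ¬ p ∣ q + 1) (h3 : ¬ p ∣ q ^ 2 + q + 1) : H665.NoPQ.HasDZ p ↥(twistedD4 K q) := by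
  have hpp := hpf.out
  obtain ⟨χ, m, hχ, -⟩ := char_all hq hK
  have : Finite ↥(twistedD4 K q) := inferInstance
  refine hasDZ_of_degree χ.2 (Cfsg.Agent.Blocks.Basic.irr_one_eq_charDegree χ.2) ?_
  rw [hχ]
  refine (pow_dvd_of hpp (C := q ^ 12 * ((q + 1) * (q - 1) * ((q - 1) * (q ^ 2 + q + 1)))) ?_ ?_).mul_right m
  · rw [Cfsg.Agent.S1067.result hq hK, arith_a hq.two_le]
  · intro h
    rcases hpp.dvd_mul.1 h with h | h
    · exact hpq (hpp.dvd_of_dvd_pow h)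
    · rcases hpp.dvd_mul.1 h with h | h
      · rcases hpp.dvd_mul.1 h with h | h
        · exact h2 h
        · exact h1 h
      · rcases hpp.dvd_mul.1 h with h | h
        · exact h1 h
        · exact h3 h

theorem arith_b {q : ℕ} (hq : 2 ≤ q) : q ^ 12 * (q ^ 2 - 1) * (q ^ 6 - 1) * (q ^ 8 + q ^ 4 + 1) =
    (q + 1) * (q ^ 8 + q ^ 4 + 1) * (q ^ 3 - 1) * (q ^ 12 * ((q - 1) * (q ^ 3 + 1))) := by
  obtain ⟨m, rfl⟩ := Nat.exists_eq_add_of_le hq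
  have e1 : 2 + m - 1 = m + 1 := by omega
  have e2 : (2 + m) ^ 2 - 1 = (m + 1) * (2 + m + 1) := by
    rw [show (2 + m) ^ 2 = (m + 1) * (2 + m + 1) + 1 by ring]
    rfl
  have e3 : (2 + m) ^ 3 - 1 = (m + 1) * ((2 + m) ^ 2 + (2 + m) + 1) := by
    rw [show (2 + m) ^ 3 = (m + 1) * ((2 + m) ^ 2 + (2 + m) + 1) + 1 by ring]
    rfl
  have e6 : (2 + m) ^ 6 - 1 = (m + 1) * (((2 + m) ^ 2 + (2 + m) + 1) * ((2 + m) ^ 3 + 1)) := by
    rw [show (2 + m) ^ 6 = (m + 1) * (((2 + m) ^ 2 + (2 + m) + 1) * ((2 + m) ^ 3 + 1)) + 1 by ring]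
    rfl
  rw [e1, e2, e3, e6]
  ring

/-- a prime `p` with `p ∣ q ^ 3 - 1`, `p ≠ 2` does not divide `q ^ 3 + 1` -/
theorem not_dvd_cube {q p : ℕ} (hp : p.Prime) (hp2 : p ≠ 2) (hq : 1 ≤ q) (h : p ∣ q ^ 3 - 1) : ¬ p ∣ q ^ 3 + 1 := by
  intro h1
  have h2 : p ∣ (q ^ 3 + 1) - (q ^ 3 - 1) := Nat.dvd_sub h1 h
  have h3 : 1 ≤ q ^ 3 := Nat.one_le_pow _ _ hq
  have h4 : (q ^ 3 + 1) - (q ^ 3 - 1) = 2 := by omega
  rw [h4] at h2
  exact hp2 ((Nat.prime_dvd_prime_iff_eq hp Nat.prime_two).1 h2)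

theorem dz_of_dvd (hq : IsPrimePow q) (h4 : 4 ≤ q) (hK : Fintype.card K = q ^ 3) {p : ℕ} [hpf : Fact p.Prime]
    (hpq : ¬ p ∣ q) (hp2 : p ≠ 2) (h1 : ¬ p ∣ q - 1) (h3 : p ∣ q ^ 3 - 1) : H665.NoPQ.HasDZ p ↥(twistedD4 K q) := by
  have hpp := hpf.out
  obtain ⟨χ, m, hχ, hm⟩ := char_one hq h4 hK
  have : Finite ↥(twistedD4 K q) := inferInstance
  refine hasDZ_of_degree χ.2 (Cfsg.Agent.Blocks.Basic.irr_one_eq_charDegree χ.2) ?_
  rw [hχ]
  have hcard := Cfsg.Agent.S1067.result hq hK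
  refine (pow_dvd_of_two hpp (d := (q + 1) * (q ^ 8 + q ^ 4 + 1)) (s := q ^ 3 - 1)
    (C := q ^ 12 * ((q - 1) * (q ^ 3 + 1))) ?_ ?_ Nat.card_pos.ne').trans (mul_dvd_mul (dvd_refl _) (hm _ ?_ ?_))
  · rw [hcard, arith_b hq.two_le]
  · intro h
    rcases hpp.dvd_mul.1 h with h | h
    · exact hpq (hpp.dvd_of_dvd_pow h)
    · rcases hpp.dvd_mul.1 h with h | h
      · exact h1 h
      · exact not_dvd_cube hpp hp2 (by omega) h3 h
  · exact (hpp.odd_of_ne_two hp2).pow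
  · exact Nat.ordProj_dvd _ p

end Cfsg.Agent.H139.Van.TwD4
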