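import Cfsg.Agent.H139.Van.TwD4
import Cfsg.Agent.H139.Van.Tab28Two
import Cfsg.Agent.H139.Van.Tab28Three
import Cfsg.Agent.H40.PV.Ell
import Cfsg.Agent.H620.PNorm

/-!
# `³D₄(2)`, `p = 7` and `³D₄(3)`, `p = 13` (helper139)

The elements of order `p` of the torus have trace `1` on the adjoint module; the element of `Tab28` has order `p` and
trace `0`, so it is not conjugate into `P_{0}`, and the characters induced from `P_{0}` vanish at it.
-/

set_option autoImplicit false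
set_option linter.unusedSectionVars false

open Cfsg

namespace Cfsg.Agent.H139.Van.TwD4Small

open Cfsg.Lie Cfsg.Agent.ChevalleyStructure Cfsg.Agent.ChevalleyStructure.D4Torus
  Cfsg.Agent.ChevalleyStructure.D4Cols Cfsg.Agent.ChevalleyStructure.D4Fixed Cfsg.Agent.H139.Van.Tab28

/-! ### Sylow -/

theorem exists_conj_mem_of_index {H : Type*} [Group H] [Finite H] {p : ℕ} [hp : Fact p.Prime] (L : Subgroup H)
    (hL : ¬ p ∣ L.index) {x : H} (hx : orderOf x = p) : ∃ y : H, y * x * y⁻¹ ∈ L := by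
  let S : Sylow p L := default
  have h1 : IsPGroup p ((S : Subgroup L).map L.subtype) := S.isPGroup'.map _
  have h2 : ¬ p ∣ ((S : Subgroup L).map L.subtype).index := by
    rw [Subgroup.index_map_subtype, hp.out.dvd_mul, not_or]
    exact ⟨S.not_dvd_index, hL⟩
  have h3 : IsPGroup p (Subgroup.zpowers x) := IsPGroup.of_card (n := 1) (by rw [Nat.card_zpowers, hx, pow_one])
  obtain ⟨Q, hQ⟩ := h3.exists_le_sylow
  obtain ⟨g, hg⟩ := MulAction.exists_smul_eq H Q (h1.toSylow h2)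
  refine ⟨g, ?_⟩
  have h4 : g * x * g⁻¹ ∈ ((g • Q : Sylow p H) : Subgroup H) := by
    rw [Sylow.coe_subgroup_smul]
    exact Subgroup.smul_mem_pointwise_smul x (MulAut.conj g) _ (hQ (Subgroup.mem_zpowers x))
  rw [hg] at h4
  obtain ⟨y, -, hy⟩ := h4
  rw [← hy]
  exact y.2

/-! ### the trace of the elements of the torus -/

/-- the exponents -/
def nn (q m : ℕ) (s : ℕ) : ℕ := ((coef s 0 + q * coef s 2 + q ^ 2 * coef s 3) % m).toNat

theorem val_eq {K : Type*} [Field K] (χ : Fin 4 → Kˣ) {q m : ℕ} (h1 : χ 1 = 1) (h2 : χ 2 = χ 0 ^ q)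
    (h3 : χ 3 = χ 0 ^ (q ^ 2)) (hm : χ 0 ^ m = 1) (hm0 : 0 < m) (s : Fin chevD4.nroots) :
    val χ (Sum.inr s) = χ 0 ^ nn q m s.val := by
  change χ 0 ^ coef s.val 0 * (χ 1 ^ coef s.val 1 * (χ 2 ^ coef s.val 2 * χ 3 ^ coef s.val 3)) = _
  rw [h1, one_zpow, one_mul, h2, h3, ← zpow_natCast (χ 0) q, ← zpow_natCast (χ 0) (q ^ 2), ← zpow_mul, ← zpow_mul,
    ← zpow_add, ← zpow_add, ← zpow_natCast (χ 0) (nn q m s.val), nn, Int.toNat_of_nonneg
    (Int.emod_nonneg _ (by omega))]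
  have e : coef s.val 0 + ((q : ℤ) * coef s.val 2 + ((q ^ 2 : ℕ) : ℤ) * coef s.val 3) =
      (coef s.val 0 + q * coef s.val 2 + q ^ 2 * coef s.val 3) % m +
        m * ((coef s.val 0 + q * coef s.val 2 + q ^ 2 * coef s.val 3) / m) := by
    rw [Int.emod_add_mul_ediv]
    push_cast
    ring
  rw [e, zpow_add, zpow_mul, zpow_natCast, hm, one_zpow, mul_one]

theorem trace_tor {K : Type*} [Field K] (χ : Fin 4 → Kˣ) {q m : ℕ} (h1 : χ 1 = 1) (h2 : χ 2 = χ 0 ^ q)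
    (h3 : χ 3 = χ 0 ^ (q ^ 2)) (hm : χ 0 ^ m = 1) (hm0 : 0 < m) :
    Matrix.trace ((tor χ : GL chevD4.Idx K) : Matrix chevD4.Idx chevD4.Idx K) =
      4 + ∑ s : Fin 24, (χ 0 : K) ^ nn q m s.val := by
  have e : ((tor χ : GL chevD4.Idx K) : Matrix chevD4.Idx chevD4.Idx K) = Matrix.diagonal fun j => (val χ j : K) := rfl
  rw [e, Matrix.trace_diagonal, Fintype.sum_sum_type]
  congr 1
  · have : ∀ i : Fin chevD4.rank, ((val χ (Sum.inl i) : Kˣ) : K) = 1 := fun i => rfl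
    rw [Finset.sum_congr rfl fun i _ => this i, Finset.sum_const, Finset.card_univ, Fintype.card_fin]
    change 4 • (1 : K) = 4
    simp
  · change ∑ s : Fin chevD4.nroots, ((val χ (Sum.inr s) : Kˣ) : K) = ∑ s : Fin chevD4.nroots, (χ 0 : K) ^ nn q m s.val
    refine Finset.sum_congr rfl fun s _ => ?_
    rw [val_eq χ h1 h2 h3 hm hm0 s, Units.val_pow_eq_pow_val]

def t2 : List ℕ := [0, 0, 4, 2, 6, 6, 1, 5, 3, 0, 5, 3, 4, 2, 0, 4, 2, 6, 1, 1, 5, 3, 0, 0]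

def t3 : List ℕ := [0, 0, 9, 3, 12, 12, 1, 10, 4, 0, 10, 4, 9, 3, 0, 9, 3, 12, 1, 1, 10, 4, 0, 0]

theorem nn2 : ∀ s : Fin 24, nn 2 7 s.val = t2.getD s.val 0 := by decide +kernel

theorem nn3 : ∀ s : Fin 24, nn 3 13 s.val = t3.getD s.val 0 := by decide +kernel

theorem sum_two {K : Type*} [Field K] (T : K) :
    ∑ s : Fin 24, T ^ nn 2 7 s.val = 6 + 3 * (T + T ^ 2 + T ^ 3 + T ^ 4 + T ^ 5 + T ^ 6) := by
  rw [Finset.sum_congr rfl fun s _ => by rw [nn2 s]]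
  simp only [Fin.sum_univ_succ, t2, Fin.val_zero, Fin.val_succ, List.getD_cons_zero, List.getD_cons_succ]
  simp
  ring

theorem sum_three {K : Type*} [Field K] (T : K) :
    ∑ s : Fin 24, T ^ nn 3 13 s.val = 6 + 3 * (T + T ^ 3 + T ^ 4 + T ^ 9 + T ^ 10 + T ^ 12) := by
  rw [Finset.sum_congr rfl fun s _ => by rw [nn3 s]]
  simp only [Fin.sum_univ_succ, t3, Fin.val_zero, Fin.val_succ, List.getD_cons_zero, List.getD_cons_succ]
  simp
  ring

/-! ### the elements of order `p` -/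

theorem x_eq (K : Type*) [Field K] (r : ℕ) (hr : r < chevD4.nroots) (t : K) :
    chevD4.x K r t = chevD4.xMat K ⟨r, hr⟩ t := dif_pos hr

/-- the element -/
noncomputable def w {K : Type*} [Field K] (φ : K →+* K) : GL chevD4.Idx K := xU 14 1 * xU 9 1 * X φ 1 * Y φ (-1)

theorem coe_w {F K : Type*} [Field F] [Field K] (f : F →+* K) (φ : K →+* K) :
    ((w φ : GL chevD4.Idx K) : Matrix chevD4.Idx chevD4.Idx K) =
      (chevD4.x F 14 1 * chevD4.x F 9 1 * (chevD4.x F 18 1 * chevD4.x F 13 1 * chevD4.x F 12 1) *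
        (chevD4.x F 5 (-1) * chevD4.x F 10 (-1) * chevD4.x F 11 (-1))).map f := by
  have h1 : ∀ A B : Matrix chevD4.Idx chevD4.Idx F, (A * B).map f = A.map f * B.map f := fun A B => Matrix.map_mul
  simp only [h1, Cfsg.Agent.ChevStructure.FieldMap.x_map, map_one, map_neg]
  unfold w X Y
  simp only [Units.val_mul, coe_xU, map_one, map_neg]

theorem w_mem {K : Type*} [Field K] {q : ℕ} {φ : K →+* K} (hφ : ∀ x, φ x = x ^ q) : w φ ∈ twistedD4 K q :=
  mul_mem (mul_mem (mul_mem (x14_mem (one_pow q)) (x9_mem (one_pow q))) (X_mem hφ 1)) (Y_mem hφ (-1))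

section two

open Cfsg.Agent.H139.Van.Tab28Two

theorem word_two : chevD4.x (ZMod 2) 14 1 * chevD4.x (ZMod 2) 9 1 * (chevD4.x (ZMod 2) 18 1 * chevD4.x (ZMod 2) 13 1 *
    chevD4.x (ZMod 2) 12 1) * (chevD4.x (ZMod 2) 5 (-1) * chevD4.x (ZMod 2) 10 (-1) * chevD4.x (ZMod 2) 11 (-1)) =
    N 2 p7 := by
  rw [x_eq _ 14 (by decide), x_eq _ 9 (by decide), x_eq _ 18 (by decide), x_eq _ 13 (by decide),
    x_eq _ 12 (by decide), x_eq _ 5 (by decide), x_eq _ 10 (by decide), x_eq _ 11 (by decide), x_14, x_9, x_18, x_13,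
    x_12, x_5, x_10, x_11]
  simp only [← mul_assoc]
  rw [N_tr tr0, N_mul c1, N_mul c2, N_mul c3, N_mul c4, N_mul c5, N_mul c6, N_mul c7]

theorem pow_two' : (N 2 p7) ^ 7 = 1 := by
  have e1 : N 2 p7 * N 2 p7 = N 2 x2 := by
    have := N_mul d2
    rwa [N_tr trX] at this
  have e2 : N 2 x2 * N 2 x2 = N 2 x4 := by
    have := N_mul d4
    rwa [N_tr tr2] at this
  have e3 : N 2 x4 * N 2 x2 = N 2 x6 := by
    have := N_mul d6
    rwa [N_tr tr2] at this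
  have e4 : N 2 x6 * N 2 p7 = N 2 x7 := by
    have := N_mul d7
    rwa [N_tr trX] at this
  calc (N 2 p7) ^ 7 = ((N 2 p7 * N 2 p7) * (N 2 p7 * N 2 p7)) * (N 2 p7 * N 2 p7) * N 2 p7 := by
        simp only [pow_succ, pow_zero, one_mul, mul_assoc]
    _ = 1 := by rw [e1, e2, e3, e4, one_eq]

end two

section three

open Cfsg.Agent.H139.Van.Tab28Three

theorem word_three : chevD4.x (ZMod 3) 14 1 * chevD4.x (ZMod 3) 9 1 * (chevD4.x (ZMod 3) 18 1 * chevD4.x (ZMod 3) 13 1 *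
    chevD4.x (ZMod 3) 12 1) * (chevD4.x (ZMod 3) 5 (-1) * chevD4.x (ZMod 3) 10 (-1) * chevD4.x (ZMod 3) 11 (-1)) =
    N 3 p7 := by
  rw [x_eq _ 14 (by decide), x_eq _ 9 (by decide), x_eq _ 18 (by decide), x_eq _ 13 (by decide),
    x_eq _ 12 (by decide), x_eq _ 5 (by decide), x_eq _ 10 (by decide), x_eq _ 11 (by decide), x_14, x_9, x_18, x_13,
    x_12, x_5, x_10, x_11]
  simp only [← mul_assoc]
  rw [N_tr tr0, N_mul c1, N_mul c2, N_mul c3, N_mul c4, N_mul c5, N_mul c6, N_mul c7]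

theorem pow_three' : (N 3 p7) ^ 13 = 1 := by
  have e1 : N 3 p7 * N 3 p7 = N 3 x2 := by
    have := N_mul d2
    rwa [N_tr trX] at this
  have e2 : N 3 x2 * N 3 x2 = N 3 x4 := by
    have := N_mul d4
    rwa [N_tr tr2] at this
  have e3 : N 3 x4 * N 3 x4 = N 3 x8 := by
    have := N_mul d8
    rwa [N_tr tr4] at this
  have e4 : N 3 x8 * N 3 x4 = N 3 x12 := by
    have := N_mul d12
    rwa [N_tr tr4] at this
  have e5 : N 3 x12 * N 3 p7 = N 3 x13 := by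
    have := N_mul d13
    rwa [N_tr trX] at this
  have e6 : (N 3 p7) ^ 4 = N 3 x4 := by
    calc (N 3 p7) ^ 4 = (N 3 p7 * N 3 p7) * (N 3 p7 * N 3 p7) := by
          simp only [pow_succ, pow_zero, one_mul, mul_assoc]
      _ = _ := by rw [e1, e2]
  calc (N 3 p7) ^ 13 = ((N 3 p7) ^ 4 * (N 3 p7) ^ 4) * (N 3 p7) ^ 4 * N 3 p7 := by
        rw [← pow_add, ← pow_add, ← pow_succ]
    _ = 1 := by rw [e6, e3, e4, e5, one_eq]

end three

/-- the order and the trace of the element -/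
theorem order_trace {K : Type*} [Field K] {p₀ p : ℕ} [Fact p₀.Prime] [Fact p.Prime] [CharP K p₀] (φ : K →+* K)
    {A : Matrix chevD4.Idx chevD4.Idx (ZMod p₀)}
    (hA : chevD4.x (ZMod p₀) 14 1 * chevD4.x (ZMod p₀) 9 1 * (chevD4.x (ZMod p₀) 18 1 * chevD4.x (ZMod p₀) 13 1 *
      chevD4.x (ZMod p₀) 12 1) * (chevD4.x (ZMod p₀) 5 (-1) * chevD4.x (ZMod p₀) 10 (-1) *
      chevD4.x (ZMod p₀) 11 (-1)) = A) (h1 : A ^ p = 1) (h2 : A ≠ 1) (h3 : A.trace = 0) :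
    orderOf (w φ) = p ∧ Matrix.trace ((w φ : GL chevD4.Idx K) : Matrix chevD4.Idx chevD4.Idx K) = 0 := by
  have h4 := coe_w (ZMod.castHom (dvd_refl p₀) K) φ
  rw [hA] at h4
  refine ⟨orderOf_eq_prime ?_ ?_, ?_⟩
  · apply Units.ext
    rw [Units.val_pow_eq_pow_val, h4, Units.val_one]
    have h5 : (ZMod.castHom (dvd_refl p₀) K).mapMatrix (A ^ p) = 1 := by rw [h1, map_one]
    rw [map_pow] at h5
    exact h5
  · intro h5
    apply h2
    have h6 : A.map (ZMod.castHom (dvd_refl p₀) K) = 1 := by rw [← h4, h5, Units.val_one]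
    have h7 : (ZMod.castHom (dvd_refl p₀) K).mapMatrix A = (ZMod.castHom (dvd_refl p₀) K).mapMatrix 1 := by
      rw [map_one]
      exact h6
    ext i j
    have h8 := congrFun (congrFun h7 i) j
    exact (ZMod.castHom (dvd_refl p₀) K).injective h8
  · rw [h4]
    have : (A.map (ZMod.castHom (dvd_refl p₀) K)).trace = ZMod.castHom (dvd_refl p₀) K A.trace := by
      unfold Matrix.trace
      rw [map_sum]
      rfl
    rw [this, h3, map_zero]

/-! ### zeros -/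

section main

open CoxeterSystem Cfsg.Agent.ChevalleyStructure.CoxeterGeom Cfsg.Agent.Tits.Roots Cfsg.Agent.Tits.Core
  Cfsg.Agent.Tits.RootComb Cfsg.Agent.Nodes.Comb Cfsg.Agent.Nodes.Reps Cfsg.Agent.Nodes.BNOf
  Cfsg.Agent.Nodes.BNOf.RGD Cfsg.Agent.Nodes.RGDChev Cfsg.Agent.Nodes.RGDFold
open Cfsg.Agent.Nodes.Bruhat Cfsg.Agent.Nodes.LeviDec
open Cfsg.Agent.ChevalleyStructure.TwistedU
open Cfsg.Agent.Nodes.RGDFoldSL
open Cfsg.Agent.ChevalleyStructure.SL2Hom (up lo mem_closure_SL2)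
open Cfsg.Agent.BiChar.TwDFour
open Cfsg.Agent.H115.HC.TwDFour Cfsg.Agent.H139.Van.CuspPow Cfsg.Agent.H139.Van.DzG2 Cfsg.Agent.H139.Van.TwD4

variable {K : Type} [Field K] {q : ℕ} {φ : K →+* K} [Fintype K]

/-- **The characters of `³D₄(q)` induced from the parabolic subgroup of the central node.** -/
theorem char_zero {r : ℕ} [Fact r.Prime] [CharP K r] (hφ : ∀ x, φ x = x ^ q) (hq : IsPrimePow q)
    (hK : Fintype.card K = q ^ 3) : ∃ χ : IrrCharacter ↥(twistedD4 K q), ∀ x,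
      (∀ g, g⁻¹ * x * g ∉ PJ cs Nodes.RGDTwD4.isCartan (Nodes.RGDTwD4.T K q) (Nodes.RGDTwD4.X φ q) {0}) →
        (χ : ↥(twistedD4 K q) → ℂ) x = 0 := by
  classical
  have hle := D4Fixed.twisted_le_fix hK hφ
  have : Finite CoxeterMatrix.G₂.Group := Nodes.RGDChev.finite_W Cfsg.Agent.BiChar.GTwo.isType cs
  have Rg := Nodes.RGDTwD4.rgd (K := K) cs hK hφ r
  -- an element of the torus
  obtain ⟨c, hc0, hc4⟩ : ∃ c : Fx φ ((Nodes.RGDTwNode.D4.rest 1).length + 1), c ≠ 0 ∧ c ^ 4 ≠ 1 := by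
    have hfin : Finite (Fx φ ((Nodes.RGDTwNode.D4.rest 1).length + 1)) := inferInstance
    obtain ⟨g, hg⟩ := IsCyclic.exists_generator (α := (Fx φ ((Nodes.RGDTwNode.D4.rest 1).length + 1))ˣ)
    have h1 : Nat.card (Fx φ ((Nodes.RGDTwNode.D4.rest 1).length + 1)) = Nat.card K :=
      Nat.card_congr (Equiv.subtypeUnivEquiv fun t => mem_Fx_three hK hφ t)
    have h2 : orderOf g = Nat.card K - 1 := by
      rw [orderOf_eq_card_of_forall_mem_zpowers hg, Nat.card_units, h1]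
    refine ⟨g, g.ne_zero, fun h4 => ?_⟩
    have h5 : g ^ 4 = 1 := Units.ext (by rw [Units.val_pow_eq_pow_val, h4, Units.val_one])
    have h6 := Nat.le_of_dvd (by norm_num) (orderOf_dvd_of_pow_eq_one h5)
    rw [h2, Nat.card_eq_fintype_card, hK] at h6
    have h7 : 2 ^ 3 ≤ q ^ 3 := Nat.pow_le_pow_left hq.two_le 3
    omega
  have hcc : c * c ≠ 0 := mul_ne_zero hc0 hc0
  obtain ⟨χ, m, -, -, h3⟩ := exists_chi_G2_zero Rg (GG_top hφ hK) T_comm (by decide)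
    (by
      rw [card_X0 hφ hle hq.one_lt hK]
      exact hq.two_le) (a := Ph hφ hle 1 (hS c)) (Cfsg.Agent.BiChar.TwDFour.Ph_hS hφ hle 1 hc0)
    (by
      rw [← map_mul, hS_mul hc0 hc0]
      intro h1
      have h3 := free hφ hle hcc (by
        have e : (c * c) ^ 2 = c ^ 4 := by ring
        rw [e]
        exact hc4) (t := 1) (by rw [h1, one_mul, mul_one])
      exact one_ne_zero h3)
    (by
      rw [← Cfsg.Agent.BiChar.TwDFour.Ph_wS hφ hle 1, ← map_inv, ← map_mul, ← map_mul, wS_hS hc0, map_inv])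
    (by
      intro u hu
      have hu' : (u : GL chevD4.Idx K) ∈ R chevD4 Nodes.RGDTwD4.hp K Nodes.RGDTwD4.J (D4Fixed.sig φ) ![2, 3] :=
        Subgroup.mem_subgroupOf.1 hu
      rw [R_eq cls_hi (by decide +kernel)] at hu'
      exact comm_hi hφ hle (s := 23) (by decide) hu'.1 (p := r) hK _)
    (by
      intro u hu
      have hu' : (u : GL chevD4.Idx K) ∈ R chevD4 Nodes.RGDTwD4.hp K Nodes.RGDTwD4.J (D4Fixed.sig φ) (-![2, 3]) :=
        Subgroup.mem_subgroupOf.1 hu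
      rw [R_eq cls_hi' (by decide +kernel)] at hu'
      exact comm_hi hφ hle (s := 0) (by decide) hu'.1 (p := r) hK _)
  exact ⟨χ, h3⟩

/-- the index of the torus in the parabolic subgroup -/
theorem index_T {r : ℕ} [Fact r.Prime] [CharP K r] (hφ : ∀ x, φ x = x ^ q)
    (hq : IsPrimePow q) (hK : Fintype.card K = q ^ 3) :
    (Nodes.RGDTwD4.T K q).relIndex (PJ cs Nodes.RGDTwD4.isCartan (Nodes.RGDTwD4.T K q) (Nodes.RGDTwD4.X φ q) {0}) =
      q ^ 12 * (q + 1) := by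
  have hle := D4Fixed.twisted_le_fix hK hφ
  set P := PJ cs Nodes.RGDTwD4.isCartan (Nodes.RGDTwD4.T K q) (Nodes.RGDTwD4.X φ q) {0} with hP
  have h1 : P.index = (q ^ 3 + 1) * (q ^ 8 + q ^ 4 + 1) := index_eq' (p := r) hφ hle hq hK
  have h2 : Nat.card (Nodes.RGDTwD4.T K q) = (q - 1) * (q ^ 3 - 1) := by
    rw [← D4H1.card_H1 hq hK hφ]
    exact Nat.card_congr (Subgroup.subgroupOfEquivOfLe inf_le_right).toEquiv
  have hT : Nodes.RGDTwD4.T K q ≤ P := Cfsg.Agent.H115.HC.T_le_PJ {0}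
  have h3 : (Nodes.RGDTwD4.T K q).relIndex P * P.index = (Nodes.RGDTwD4.T K q).index :=
    Subgroup.relIndex_mul_index hT
  have h4 := (Nodes.RGDTwD4.T K q).index_mul_card
  rw [Cfsg.Agent.S1067.result hq hK, ← h3, h1, h2, arith_a hq.two_le] at h4
  clear_value P
  generalize (Nodes.RGDTwD4.T K q).relIndex P = I at h4 ⊢
  clear h3 hT h2 h1 hP
  obtain ⟨m, hm⟩ := Nat.exists_eq_add_of_le hq.two_le
  rw [hm] at h4 ⊢
  have e1 : 2 + m - 1 = m + 1 := by omega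
  have e3 : (2 + m) ^ 3 - 1 = (m + 1) * ((2 + m) ^ 2 + (2 + m) + 1) := by
    rw [show (2 + m) ^ 3 = (m + 1) * ((2 + m) ^ 2 + (2 + m) + 1) + 1 by ring]
    rfl
  rw [e1, e3] at h4
  have h5 : 0 < (((2 + m) ^ 3 + 1) * ((2 + m) ^ 8 + (2 + m) ^ 4 + 1)) *
      ((m + 1) * ((m + 1) * ((2 + m) ^ 2 + (2 + m) + 1))) := by positivity
  apply Nat.eq_of_mul_eq_mul_right h5
  rw [← mul_assoc, h4]
  ring

/-- **The zeros at the elements of order `p` with an exceptional trace.** -/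
theorem vz_of_trace {r : ℕ} [Fact r.Prime] [CharP K r] (hφ : ∀ x, φ x = x ^ q) (hq : IsPrimePow q)
    (hK : Fintype.card K = q ^ 3) {p : ℕ} [hp : Fact p.Prime] (hpq : ¬ p ∣ q) (hp1 : ¬ p ∣ q + 1)
    {x : ↥(twistedD4 K q)} (hx : orderOf x = p)
    (htr : ∀ z ∈ Nodes.RGDTwD4.T K q, orderOf z = p →
      Matrix.trace ((z : GL chevD4.Idx K) : Matrix chevD4.Idx chevD4.Idx K) ≠
        Matrix.trace ((x : GL chevD4.Idx K) : Matrix chevD4.Idx chevD4.Idx K)) :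
    H713.VZ ↥(twistedD4 K q) x := by
  classical
  have hle := D4Fixed.twisted_le_fix hK hφ
  have : Finite CoxeterMatrix.G₂.Group := Nodes.RGDChev.finite_W Cfsg.Agent.BiChar.GTwo.isType cs
  have Rg := Nodes.RGDTwD4.rgd (K := K) cs hK hφ r
  obtain ⟨χ, hχ⟩ := char_zero (r := r) hφ hq hK
  refine ⟨χ, fun α => hχ _ fun g hg => ?_⟩
  obtain ⟨g₀, σ, D, -, -, -, hP⟩ := H40.PV.exists_aut Rg (GG_top hφ hK) α
  have hσ : σ 0 = 0 := by
    by_contra h0
    have h1 : σ 0 = 1 := (by decide : ∀ i : Fin 2, i ≠ 0 → i = 1) _ h0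
    have h2 := H40.PV.diag_card D 0
    rw [h1, card_X1 hφ hle hK, card_X0 hφ hle hq.one_lt hK] at h2
    have h3 := hq.two_le
    nlinarith [h2, h3, pow_pos (lt_of_lt_of_le Nat.zero_lt_two h3) 2, pow_succ q 2]
  -- `x` is conjugate into `P_{0}`
  obtain ⟨c, hc⟩ := (MulAut.conj g₀ * α).surjective (g₀ * g)
  have h1 : (MulAut.conj g₀ * α) (c⁻¹ * x * c) = g⁻¹ * α x * g := by
    rw [map_mul, map_mul, map_inv, hc, MulAut.mul_apply, MulAut.conj_apply]
    group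
  have h2 : c⁻¹ * x * c ∈ PJ cs Nodes.RGDTwD4.isCartan (Nodes.RGDTwD4.T K q) (Nodes.RGDTwD4.X φ q) {0} := by
    rw [← hP, h1, Set.image_singleton, hσ]
    exact hg
  -- and into the torus
  have h3 : orderOf (⟨c⁻¹ * x * c, h2⟩ : PJ cs Nodes.RGDTwD4.isCartan (Nodes.RGDTwD4.T K q)
      (Nodes.RGDTwD4.X φ q) {0}) = p := by
    rw [Subgroup.orderOf_mk, ← hx]
    have e : c⁻¹ * x * c = MulAut.conj c⁻¹ x := by rw [MulAut.conj_apply, inv_inv]
    rw [e, MulEquiv.orderOf_eq]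
  obtain ⟨d, hd⟩ := exists_conj_mem_of_index ((Nodes.RGDTwD4.T K q).subgroupOf _) (by
    change ¬ p ∣ (Nodes.RGDTwD4.T K q).relIndex _
    rw [index_T (r := r) hφ hq hK, hp.out.dvd_mul, not_or]
    exact ⟨fun h => hpq (hp.out.dvd_of_dvd_pow h), hp1⟩) h3
  rw [Subgroup.mem_subgroupOf] at hd
  refine htr _ hd ?_ ?_
  · change orderOf ((d : ↥(twistedD4 K q)) * (c⁻¹ * x * c) * (d : ↥(twistedD4 K q))⁻¹) = p
    have e : (d : ↥(twistedD4 K q)) * (c⁻¹ * x * c) * (d : ↥(twistedD4 K q))⁻¹ =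
        MulAut.conj ((d : ↥(twistedD4 K q)) * c⁻¹) x := by
      rw [MulAut.conj_apply]
      group
    rw [e, MulEquiv.orderOf_eq, hx]
  · change Matrix.trace (((((d : ↥(twistedD4 K q)) * (c⁻¹ * x * c) * (d : ↥(twistedD4 K q))⁻¹ :
      ↥(twistedD4 K q)) : GL chevD4.Idx K) : Matrix chevD4.Idx chevD4.Idx K)) = _
    have e : (d : ↥(twistedD4 K q)) * (c⁻¹ * x * c) * (d : ↥(twistedD4 K q))⁻¹ =
        ((d : ↥(twistedD4 K q)) * c⁻¹) * x * ((d : ↥(twistedD4 K q)) * c⁻¹)⁻¹ := by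
      group
    rw [e, Subgroup.coe_mul, Subgroup.coe_mul, Subgroup.coe_inv, Units.val_mul, Units.val_mul]
    exact Matrix.trace_units_conj _ _

/-- the characters of the elements of order `p` of the torus -/
theorem exists_of_T (hφ : ∀ x, φ x = x ^ q) (hK : Fintype.card K = q ^ 3) {p : ℕ} [hp : Fact p.Prime]
    (hp1 : ¬ p ∣ q - 1) (hq1 : 1 < q) {z : ↥(twistedD4 K q)} (hz : z ∈ Nodes.RGDTwD4.T K q) (ho : orderOf z = p) :
    ∃ χ : Fin 4 → Kˣ, (z : GL chevD4.Idx K) = tor χ ∧ χ 1 = 1 ∧ χ 2 = χ 0 ^ q ∧ χ 3 = χ 0 ^ (q ^ 2) ∧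
      χ 0 ^ p = 1 ∧ χ 0 ≠ 1 := by
  obtain ⟨χ, h1, h2, h3, h4⟩ := D4H1.exists_char hK hφ (Subgroup.mem_subgroupOf.1 hz)
  have hm : ∀ u : Kˣ, Units.map (φ : K →* K) u = u ^ q := fun u => Units.ext (hφ u)
  have h5 : ∀ i, χ i ^ p = 1 := by
    intro i
    have h6 : z ^ p = 1 := by rw [← ho]; exact pow_orderOf_eq_one z
    have h7 : torHom (χ ^ p) = torHom 1 := by
      rw [map_pow, map_one]
      change (tor χ) ^ p = 1
      rw [h1, ← SubmonoidClass.coe_pow, h6]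
      rfl
    exact congrFun (tor_injective h7) i
  have h6 : χ 1 = 1 := by
    have h7 : χ 1 ^ q = χ 1 := Units.ext (by rw [Units.val_pow_eq_pow_val, ← hφ]; exact h2)
    have h8 : χ 1 ^ (q - 1) = 1 := by
      have h9 : χ 1 ^ (q - 1) * χ 1 = 1 * χ 1 := by
        rw [← pow_succ, Nat.sub_add_cancel hq1.le, h7, one_mul]
      exact mul_right_cancel h9
    have h9 : orderOf (χ 1) ∣ p := orderOf_dvd_of_pow_eq_one (h5 1)
    have h10 : orderOf (χ 1) ∣ q - 1 := orderOf_dvd_of_pow_eq_one h8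
    rcases (Nat.dvd_prime hp.out).1 h9 with h11 | h11
    · exact orderOf_eq_one_iff.1 h11
    · rw [h11] at h10
      exact absurd h10 hp1
  have h7 : χ 2 = χ 0 ^ q := by rw [h3, hm]
  have h8 : χ 3 = χ 0 ^ (q ^ 2) := by rw [h4, hm, hm, ← pow_mul, sq]
  refine ⟨χ, h1.symm, h6, h7, h8, h5 0, fun h0 => ?_⟩
  have h9 : χ = 1 := by
    funext i
    fin_cases i
    · exact h0
    · exact h6
    · change χ 2 = 1
      rw [h7, h0, one_pow]
    · change χ 3 = 1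
      rw [h8, h0, one_pow]
  rw [h9, tor_one] at h1
  have h10 : z = 1 := Subtype.ext h1.symm
  rw [h10, orderOf_one] at ho
  exact hp.out.one_lt.ne ho

/-- **`³D₄(2)`, `p = 7`.** -/
theorem vOrdP_two (hK : Fintype.card K = 2 ^ 3) : H620.PNorm.VOrdP 7 ↥(twistedD4 K 2) := by
  classical
  have : Fact (Nat.Prime 2) := ⟨Nat.prime_two⟩
  have : Fact (Nat.Prime 7) := ⟨by norm_num⟩
  have : CharP K 2 := by
    obtain ⟨c, hc⟩ := CharP.exists K
    obtain ⟨n, hn, h1⟩ := FiniteField.card K c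
    rw [hK] at h1
    have h2 : c ∣ 2 ^ 3 := by rw [h1]; exact dvd_pow_self c n.ne_zero
    have h3 := (Nat.prime_dvd_prime_iff_eq hn Nat.prime_two).1 (hn.dvd_of_dvd_pow h2)
    rwa [h3] at hc
  have hq : IsPrimePow 2 := Nat.prime_two.isPrimePow
  obtain ⟨φ, hφ⟩ := D4Fixed.exists_frob hq hK
  obtain ⟨h1, h2⟩ := order_trace (p := 7) φ word_two pow_two' Tab28Two.ne_one Tab28Two.trace_eq
  refine ⟨⟨w φ, w_mem hφ⟩, by rw [Subgroup.orderOf_mk, h1], ?_⟩
  refine vz_of_trace (r := 2) hφ hq hK (p := 7) (by norm_num) (by norm_num) (by rw [Subgroup.orderOf_mk, h1]) ?_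
  intro z hz ho
  change _ ≠ Matrix.trace ((w φ : GL chevD4.Idx K) : Matrix chevD4.Idx chevD4.Idx K)
  rw [h2]
  obtain ⟨χ, e, h3, h4, h5, h6, h7⟩ := exists_of_T hφ hK (p := 7) (by norm_num) (by norm_num) hz ho
  rw [e, trace_tor χ h3 h4 h5 h6 (by norm_num), sum_two]
  have h20 : (2 : K) = 0 := CharP.cast_eq_zero K 2
  have hT : (χ 0 : K) ≠ 1 := fun h => h7 (Units.ext h)
  have hT7 : (χ 0 : K) ^ 7 = 1 := by rw [← Units.val_pow_eq_pow_val, h6, Units.val_one]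
  have h8 : 1 + ((χ 0 : K) + (χ 0 : K) ^ 2 + (χ 0 : K) ^ 3 + (χ 0 : K) ^ 4 + (χ 0 : K) ^ 5 + (χ 0 : K) ^ 6) = 0 := by
    have h9 : ((χ 0 : K) - 1) * (1 + ((χ 0 : K) + (χ 0 : K) ^ 2 + (χ 0 : K) ^ 3 + (χ 0 : K) ^ 4 + (χ 0 : K) ^ 5 +
        (χ 0 : K) ^ 6)) = 0 := by linear_combination hT7
    exact (mul_eq_zero.1 h9).resolve_left (sub_ne_zero.2 hT)
  intro h9
  apply one_ne_zero (α := K)
  linear_combination h9 - 3 * h8 - 3 * h20

/-- **`³D₄(3)`, `p = 13`.** -/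
theorem vOrdP_three (hK : Fintype.card K = 3 ^ 3) : H620.PNorm.VOrdP 13 ↥(twistedD4 K 3) := by
  classical
  have : Fact (Nat.Prime 3) := ⟨Nat.prime_three⟩
  have : Fact (Nat.Prime 13) := ⟨by norm_num⟩
  have : CharP K 3 := by
    obtain ⟨c, hc⟩ := CharP.exists K
    obtain ⟨n, hn, h1⟩ := FiniteField.card K c
    rw [hK] at h1
    have h2 : c ∣ 3 ^ 3 := by rw [h1]; exact dvd_pow_self c n.ne_zero
    have h3 := (Nat.prime_dvd_prime_iff_eq hn Nat.prime_three).1 (hn.dvd_of_dvd_pow h2)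
    rwa [h3] at hc
  have hq : IsPrimePow 3 := Nat.prime_three.isPrimePow
  obtain ⟨φ, hφ⟩ := D4Fixed.exists_frob hq hK
  obtain ⟨h1, h2⟩ := order_trace (p := 13) φ word_three pow_three' Tab28Three.ne_one Tab28Three.trace_eq
  refine ⟨⟨w φ, w_mem hφ⟩, by rw [Subgroup.orderOf_mk, h1], ?_⟩
  refine vz_of_trace (r := 3) hφ hq hK (p := 13) (by norm_num) (by norm_num) (by rw [Subgroup.orderOf_mk, h1]) ?_
  intro z hz ho
  change _ ≠ Matrix.trace ((w φ : GL chevD4.Idx K) : Matrix chevD4.Idx chevD4.Idx K)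
  rw [h2]
  obtain ⟨χ, e, h3, h4, h5, h6, h7⟩ := exists_of_T hφ hK (p := 13) (by norm_num) (by norm_num) hz ho
  rw [e, trace_tor χ h3 h4 h5 h6 (by norm_num), sum_three]
  have h30 : (3 : K) = 0 := CharP.cast_eq_zero K 3
  intro h9
  apply one_ne_zero (α := K)
  have h10 : (4 : K) + (6 + 0) = 0 := by
    rw [h30, zero_mul] at h9
    exact h9
  linear_combination h10 - 3 * h30

end main

end Cfsg.Agent.H139.Van.TwD4Small
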